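import Cfsg.Agent.TwoF.Alt.Step

/-!
# Characteristic two, degree at least ten
-/

set_option autoImplicit false

namespace Cfsg.Agent.TwoF.Alt

open Module Equiv Equiv.Perm Gen H189 H189.Cyc H189.Emb

variable {Y : Type} [Group Y] [Finite Y] {V : Type} [AddCommGroup V] [Module (ZMod 2) V] [Finite V]
  {K : Subgroup Y} {ρ : Representation (ZMod 2) Y V} {n : ℕ} {ψ : Y →* Perm (Fin n)}

theorem T2.yall (T : T2 K ρ ψ) (hn : 10 ≤ n) :
    ∃ N, YL ρ ψ N ∧ 16 ≤ N ∧ (12 ≤ n → 24 ≤ N) ∧ (14 ≤ n → 8 * (n / 2) ≤ N + 24) := by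
  by_cases h1 : 14 ≤ n
  · refine ⟨_, T.ybig h1, ?_⟩
    split_ifs <;> omega
  by_cases h2 : 12 ≤ n
  · exact ⟨_, T.y24 h2, by omega⟩
  · exact ⟨_, T.y16 hn, by omega⟩

theorem T2.big (T : T2 K ρ ψ) (hn : 10 ≤ n) {A : Subgroup Y} (hA : Off 2 ρ A) : False := by
  obtain ⟨r, hr, hc, hcod⟩ := hA.exists_card
  have E := T.ea hA.1 hc
  have h1 := E.rk
  rw [Fintype.card_fin] at h1
  have hX := T.x12 hn
  obtain ⟨N, hY, n1, n2, n3⟩ := T.yall hn
  have le : ∀ a ∈ A, cod ρ (Subgroup.zpowers a) ≤ cod ρ A := fun a ha => cod_mono (Subgroup.zpowers_le.2 ha)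
  rcases E.cases hr (by rw [Fintype.card_fin]; omega) with ⟨a, ha, h2, w, hw⟩ | ⟨h2, a, ha, u, w, hu, hw⟩ |
    ⟨h2, a, ha, h3⟩
  · have h3 := T.good hY (E.sq ha) h2 hw
    have h4 := le a ha
    obtain ⟨j, j1, j2⟩ : ∃ j, ¬ 2 ^ (j + 1) ∣ Fintype.card (Fin n) ∧
        (n = 10 ∧ j = 1 ∨ n = 11 ∧ j = 0 ∨ n = 12 ∧ j = 2 ∨ n = 13 ∧ j = 0) := by
      rw [Fintype.card_fin]
      obtain rfl | rfl | rfl | rfl : n = 10 ∨ n = 11 ∨ n = 12 ∨ n = 13 := by omega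
      exacts [⟨1, by decide⟩, ⟨0, by decide⟩, ⟨2, by decide⟩, ⟨0, by decide⟩]
    obtain ⟨w, -, h5⟩ := exists_small_orb (ψ := ψ) Nat.prime_two hc j1
    obtain ⟨i, -, e, E'⟩ := E.stab w
    have h6 : i ≤ j := (Nat.pow_le_pow_iff_right (by norm_num)).1 (e ▸ h5)
    rcases E'.pair (by omega) with ⟨b, hb, u, hu, c, hc, hcu, h7⟩ | h7
    · have h8 := T.k1 hX hc.1 hb.1 (E.sq hc.1) (E.sq hb.1) (E.comm c hc.1 b hb.1) hu hb.2 hcu hc.2
      have h9 := T.good hY (E.sq hc.1) h7 hc.2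
      omega
    obtain ⟨c, hc, u, hu⟩ := E'.exists_ne (by omega)
    have h8 := h7 u (two_le_orb hc hu)
    have lt : ∀ (S : Finset (Fin n)) (l : ℕ), S.card = 2 ^ l → l < 4 := fun S l e =>
      (Nat.pow_lt_pow_iff_right (a := 2) (by norm_num)).1 (by
        have := Finset.card_le_univ S
        rw [Fintype.card_fin] at this
        omega)
    have h9 := lt _ _ h8
    obtain ⟨l, -, e', E''⟩ := E.stab u
    have h10 := lt _ _ e'
    obtain ⟨b, hb, y, hy⟩ := E''.exists_ne (by omega)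
    have h11 := T.k2 hX hY hc.1 hb.1 (E.sq hc.1) (E.sq hb.1) (O := orb ψ (stb ψ A w) u)
      (by rw [h8, show r - i = 3 by omega]; decide) (fun x hx => ⟨move_orb E'.comm hx hc hu, orb_maps hx hc,
        fix_orb E.comm (orb_mono (stb_le A w) u hx) hb.1 hb.2⟩) hy
    omega
  · have h3 := T.xfix hX (E.sq ha) hu hw
    have h4 := le a ha
    omega
  · have h4 := T.big4 hY (E.sq ha) h3
    have h5 := le a ha
    rw [Fintype.card_fin] at h2
    by_cases h6 : 14 ≤ n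
    · have h7 := Nat.le_of_dvd (by omega) h2
      have h8 := Nat.pow_le_pow_right (n := 2) (by norm_num) (show n / 2 - 7 + 4 ≤ r by omega)
      have h9 := Nat.lt_two_pow_self (n := n / 2 - 7)
      rw [pow_add] at h8
      omega
    · have h7 := (pow_dvd_pow 2 (show 2 ≤ r by omega)).trans h2
      have h8 := (pow_dvd_pow 2 (show 3 ≤ r by omega)).trans h2
      omega

theorem row_big (hn : 10 ≤ n) : Row 2 (alternatingGroup (Fin n)) :=
  ⟨row88_of_fr (by omega) fun _ _ _ _ _ _ _ _ _ _ F _ hA =>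
      (F.nat_or (F.inj_two rfl (by omega)) (Or.inl (by omega))).elim (fun ⟨B, _, h⟩ => ⟨B, h⟩)
        fun T => (T.big hn hA).elim,
    row89_of_fr (by omega) fun _ _ _ _ _ _ _ _ _ _ F _ hA _ _ _ _ =>
      (F.nat_or (F.inj_two rfl (by omega)) (Or.inl (by omega))).elim (fun ⟨B, h, h', _⟩ => ⟨B, h, h'⟩)
        fun T => (T.big hn hA).elim⟩

end Cfsg.Agent.TwoF.Alt
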