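import Cfsg.Agent.TwoF.Alt.Two

/-!
# Characteristic two, not the natural module: lower bounds for 3-cycles, 5-cycles and transpositions
-/

set_option autoImplicit false

namespace Cfsg.Agent.TwoF.Alt

open Module Equiv Equiv.Perm Gen H189 H189.Cyc H189.Emb

variable {Y : Type} [Group Y] [Finite Y] {V : Type} [AddCommGroup V] [Module (ZMod 2) V] [Finite V]
  {K : Subgroup Y} {ρ : Representation (ZMod 2) Y V} {n : ℕ} {ψ : Y →* Perm (Fin n)}

theorem T2.x12 (T : T2 K ρ ψ) (hn : 10 ≤ n) : XL ρ ψ 12 := by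
  let f := Fin.castLEEmb hn
  obtain ⟨c, hc⟩ := T.lf f (c3 0 1 2) (by decide +kernel)
  obtain ⟨c', hc'⟩ := T.lf f (c3 3 4 5) (by decide +kernel)
  obtain ⟨t, ht⟩ := T.lf f (c3 3 4 5 * c3 5 6 7 * c3 7 8 9) (by decide +kernel)
  obtain ⟨g, hg⟩ := T.lf f (swap 1 2 * swap 4 9 * swap 5 8 * swap 6 7) (by decide +kernel)
  obtain ⟨h, hh⟩ := T.lf f (swap 4 7 * swap 7 5 * swap 6 8 * swap 8 9) (by decide +kernel)
  have h1 := hc.nz T hc' ht {3, 4, 5, 6, 7, 8, 9} (by decide +kernel)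
    (Lf.np T ![0, 1, 2, 3, 4, 5] (by decide) hc hc')
  have h3 : c ^ 3 = 1 := hc.pow T (by decide +kernel)
  have h7 : t ^ 7 = 1 := ht.pow T (by decide +kernel)
  obtain ⟨α, β, a1, b1, H⟩ := exists_has (hc.comm T ht (by decide +kernel)) (by decide) h3 (by decide) h7 h1
  have m1 : Mv ρ c t 2 6 := Mv.conj (hc.rel T hg hc (by decide +kernel)) (ht.rel T hg ht (by decide +kernel))
  have m2 : Mv ρ c t 1 2 := Mv.conj (hc.rel T hh hc (by decide +kernel)) (ht.rel T hh ht (by decide +kernel))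
  exact T.xl (f.injective.ne (by decide)) (f.injective.ne (by decide)) (f.injective.ne (by decide)) hc.c3
    (le_cod_of_all (by norm_num) h3 (by norm_num) h7 a1 b1 H fun i j =>
      Mv.all h3 h7 m1 m2 (by decide +kernel) i j _ _ H)

theorem T2.y24 (T : T2 K ρ ψ) (hn : 12 ≤ n) : YL ρ ψ 24 := by
  let f := Fin.castLEEmb hn
  obtain ⟨c, hc⟩ := T.lf f (c3 0 1 2) (by decide +kernel)
  obtain ⟨c', hc'⟩ := T.lf f (c3 5 6 7) (by decide +kernel)
  obtain ⟨s, hs⟩ := T.lf f (c3 0 1 2 * c3 2 3 4) (by decide +kernel)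
  obtain ⟨t, ht⟩ := T.lf f (c3 5 6 7 * c3 7 8 9 * c3 9 10 11) (by decide +kernel)
  obtain ⟨g, hg⟩ := T.lf f (swap 1 3 * swap 3 4 * swap 4 2 * swap 6 11 * swap 7 10 * swap 8 9) (by decide +kernel)
  obtain ⟨h, hh⟩ := T.lf f (swap 6 9 * swap 9 7 * swap 8 10 * swap 10 11) (by decide +kernel)
  have h1 := hc.nz T hc' ht {5, 6, 7, 8, 9, 10, 11} (by decide +kernel)
    (Lf.np T ![0, 1, 2, 5, 6, 7] (by decide) hc hc')
  have h2 := (ht.nz T hc hs {0, 1, 2, 3, 4} (by decide +kernel) (h1.symm (hc.comm T ht (by decide +kernel)))).symm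
    (ht.comm T hs (by decide +kernel))
  have h5 : s ^ 5 = 1 := hs.pow T (by decide +kernel)
  have h7 : t ^ 7 = 1 := ht.pow T (by decide +kernel)
  obtain ⟨α, β, a1, b1, H⟩ := exists_has (hs.comm T ht (by decide +kernel)) (by decide) h5 (by decide) h7 h2
  have m1 : Mv ρ s t 2 6 := Mv.conj (hs.rel T hg hs (by decide +kernel)) (ht.rel T hg ht (by decide +kernel))
  have m2 : Mv ρ s t 1 2 := Mv.conj (hs.rel T hh hs (by decide +kernel)) (ht.rel T hh ht (by decide +kernel))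
  exact T.yl (Lf.s5 (by norm_num) hs) (le_cod_of_all (by norm_num) h5 (by norm_num) h7 a1 b1 H fun i j =>
      Mv.all h5 h7 m1 m2 (by decide +kernel) i j _ _ H)

theorem T2.y16 (T : T2 K ρ ψ) (hn : 10 ≤ n) : YL ρ ψ 16 := by
  let f := Fin.castLEEmb hn
  obtain ⟨c, hc⟩ := T.lf f (c3 0 1 2) (by decide +kernel)
  obtain ⟨c', hc'⟩ := T.lf f (c3 5 6 7) (by decide +kernel)
  obtain ⟨s, hs⟩ := T.lf f (c3 0 1 2 * c3 2 3 4) (by decide +kernel)
  obtain ⟨t, ht⟩ := T.lf f (c3 5 6 7 * c3 7 8 9) (by decide +kernel)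
  obtain ⟨g, hg⟩ := T.lf f (swap 1 4 * swap 2 3) (by decide +kernel)
  obtain ⟨h, hh⟩ := T.lf f (swap 0 5 * swap 1 8 * swap 8 3 * swap 3 9 * swap 9 4 * swap 4 7 * swap 7 2 * swap 2 6)
    (by decide +kernel)
  have h1 := hc.nz T hc' ht {5, 6, 7, 8, 9} (by decide +kernel) (Lf.np T ![0, 1, 2, 5, 6, 7] (by decide) hc hc')
  have h2 := (ht.nz T hc hs {0, 1, 2, 3, 4} (by decide +kernel) (h1.symm (hc.comm T ht (by decide +kernel)))).symm
    (ht.comm T hs (by decide +kernel))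
  have h5 : s ^ 5 = 1 := hs.pow T (by decide +kernel)
  have h5' : t ^ 5 = 1 := ht.pow T (by decide +kernel)
  obtain ⟨α, β, a1, b1, H⟩ := exists_has (hs.comm T ht (by decide +kernel)) (by decide) h5 (by decide) h5' h2
  have m1 : Mv ρ s t 4 1 := Mv.conj (hs.rel T hg hs (by decide +kernel)) (ht.rel T hg ht (by decide +kernel))
  have H' : Has ρ s t (β ^ 1) (α ^ 2) :=
    H.swap (hs.rel T hh ht (by decide +kernel)) (ht.rel T hh hs (by decide +kernel))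
  have ha := H.pow_eq h5
  have hb := H.symm.pow_eq h5'
  have : Fact (Nat.Prime 5) := ⟨by norm_num⟩
  have pa : IsPrimitiveRoot α 5 := orderOf_eq_prime ha a1 ▸ IsPrimitiveRoot.orderOf α
  obtain ⟨e, he, rfl⟩ := pa.eq_pow_of_pow_eq_one hb
  have e0 : e ≠ 0 := fun h => b1 (by rw [h, pow_zero])
  refine T.yl (Lf.s5 (by norm_num) hs) (le_cod_of_all (by norm_num) h5 (by norm_num) h5' a1 b1 H fun i j => ?_)
  have key : ∀ e : Fin 5, e.1 ≠ 0 → ∀ i j : Fin 4, ∃ a : Fin 4, ∃ b : Fin 2,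
      (2 ^ a.1 * 4 ^ b.1 % 5 = (i.1 + 1) % 5 ∧ e.1 * (2 ^ a.1 * 1 ^ b.1) % 5 = e.1 * (j.1 + 1) % 5) ∨
      (e.1 * (1 * (2 ^ a.1 * 4 ^ b.1)) % 5 = (i.1 + 1) % 5 ∧ 2 * (2 ^ a.1 * 1 ^ b.1) % 5 = e.1 * (j.1 + 1) % 5) := by
    decide +kernel
  have md : ∀ {u v : ℕ}, u % 5 = v % 5 → α ^ u = α ^ v := fun h => by
    rw [pow_eq_pow_mod _ ha, h, ← pow_eq_pow_mod _ ha]
  obtain ⟨a, b, ⟨e1, e2⟩ | ⟨e1, e2⟩⟩ := key ⟨e, he⟩ e0 i j
  · have := (Mv.sq.pow a).mul (m1.pow b) _ _ H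
    rwa [← pow_mul, md e1, md e2, pow_mul] at this
  · have := (Mv.sq.pow a).mul (m1.pow b) _ _ H'
    rwa [← pow_mul, ← pow_mul, ← pow_mul, md e1, md e2, pow_mul] at this

theorem T2.ybig (T : T2 K ρ ψ) (hn : 14 ≤ n) : YL ρ ψ (4 * (n - 5 - 1 - if 2 ∣ n - 5 then 1 else 0)) := by
  let f := Fin.castLEEmb (show 8 ≤ n by omega)
  obtain ⟨c, hc⟩ := T.lf f (c3 0 1 2) (by decide +kernel)
  obtain ⟨t, ht⟩ := T.lf f (c3 5 6 7) (by decide +kernel)
  obtain ⟨s, hs⟩ := T.lf f (c3 0 1 2 * c3 2 3 4) (by decide +kernel)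
  have h2 := (ht.nz T hc hs {0, 1, 2, 3, 4} (by decide +kernel)
    (Lf.np T ![5, 6, 7, 0, 1, 2] (by decide) ht hc)).symm (ht.comm T hs (by decide +kernel))
  have h5 : s ^ 5 = 1 := hs.pow T (by decide +kernel)
  have h3 : t ^ 3 = 1 := ht.pow T (by decide +kernel)
  obtain ⟨α, β, a1, b1, H⟩ := exists_has (hs.comm T ht (by decide +kernel)) (by decide) h5 (by decide) h3 h2
  have hs' := Lf.s5 (by norm_num) hs
  obtain ⟨e, he, he'⟩ := AltOddDim.exists_compl (j := n - 5) ((Fin.castLEEmb (show 5 ≤ 8 by norm_num)).trans f)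
    (by simp; omega)
  obtain ⟨ι, hι, -⟩ := T.iota T.inj
  obtain ⟨σ, hσ⟩ := exists_emb e ⟨ψ t, mem_alternatingGroup.2 (ht.sign.trans (by decide +kernel))⟩ fun y hy => by
    obtain ⟨i, rfl⟩ : ∃ i, ((Fin.castLEEmb (show 5 ≤ 8 by norm_num)).trans f) i = y := by
      by_contra h
      obtain ⟨x, hx⟩ := he' y fun i e => h ⟨i, e⟩
      exact hy x hx
    show ψ t (f _) = f _
    rw [ht, embP_apply]
    congr 1
    clear hy
    revert i; decide +kernel
  have hσ' : ι (emb e σ) = t := T.inj (by rw [hι, hσ])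
  have hcm : ∀ g, s * ι (emb e g) = ι (emb e g) * s := fun g => T.comm (by
    rw [hι, hs']
    exact congrArg Subtype.val (emb_comm _ e he ⟨s5, mem_alternatingGroup.2 (by decide +kernel)⟩ g))
  have md : ∀ i : Fin 4, 2 ^ i.1 % 5 < 5 ∧ 2 ^ i.1 % 5 ≠ 0 ∧ 2 ^ i.1 % 3 < 3 ∧ 2 ^ i.1 % 3 ≠ 0 ∧
    ∀ j : Fin 4, 2 ^ i.1 % 5 = 2 ^ j.1 % 5 → i = j := by decide
  refine T.yl hs' (le_of_eq_of_le (congrArg (· * _) (Fintype.card_fin 4).symm) (mul_le_cod (ι := Fin 4) (fun i => α ^ (2 ^ i.1 % 5))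
    (fun i j e => (md i).2.2.2.2 j (pow_inj (by norm_num) (H.pow_eq h5) a1 (md i).1 (md j).1 e))
    (fun i e => (md i).2.1 (pow_inj (by norm_num) (H.pow_eq h5) a1 (md i).1 (by norm_num) (e.trans (pow_zero α).symm)))
    fun i => le_of_not_gt fun hlt => ?_))
  obtain ⟨v, v0, e1, e2⟩ := (Mv.sq.pow i).mod h5 h3 _ _ H
  have := AltOddDim.trivial_of_low (AltTwo.low_two (k := L2) (n - 5) (by omega)) (((bc L2 ρ).comp ι).comp (emb e)) _
    (fun g w hw => End.mem_eigenspace_iff.2 (by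
      show bc L2 ρ s (bc L2 ρ (ι (emb e g)) w) = _ • bc L2 ρ (ι (emb e g)) w
      rw [← rho_mul, hcm, rho_mul, End.mem_eigenspace_iff.1 hw, map_smul])) hlt σ v (End.mem_eigenspace_iff.2 e1)
  change bc L2 ρ (ι (emb e σ)) v = v at this
  rw [hσ', e2, ← sub_eq_zero, ← one_smul L2 v, smul_smul, mul_one, ← sub_smul, smul_eq_zero, sub_eq_zero] at this
  exact (md i).2.2.2.1 (pow_inj (by norm_num) (H.symm.pow_eq h3) b1 (md i).2.2.1 (by norm_num)
    ((this.resolve_right v0).trans (pow_zero β).symm))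

omit [Finite Y] in
/-- a 3-cycle that fixes the fixed space of a disjoint 3-cycle -/
theorem T2.fx_c3 (T : T2 K ρ ψ) (f : Fin 7 ↪ Fin n) {c c' : Y} (hc : Lf ψ f (c3 0 1 2) c) (hc' : Lf ψ f (c3 3 4 5) c')
    (h : ∀ v, ρ c v = v → ρ c' v = v) : fx ρ (Subgroup.zpowers c) = ⊥ := by
  have ne : ∀ i j : Fin 7, i ≠ j → f i ≠ f j := fun i j h => f.injective.ne h
  have h1 : fx ρ (Subgroup.zpowers c) = fx ρ (Subgroup.zpowers c') := by
    refine Submodule.eq_of_le_of_finrank_le (fun v hv => mem_fx_zpowers.2 (h v (mem_fx_zpowers.1 hv))) ?_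
    have h2 := T.xl (ne 0 1 (by decide)) (ne 0 2 (by decide)) (ne 1 2 (by decide)) hc.c3 le_rfl c' _ _ _
      (ne 3 4 (by decide)) (ne 3 5 (by decide)) (ne 4 5 (by decide)) hc'.c3
    have h3 := cod_add (ρ := ρ) (Subgroup.zpowers c)
    have h4 := cod_add (ρ := ρ) (Subgroup.zpowers c')
    omega
  have key : ∀ (x y : Y) (a b d u v w : Fin n), ψ x = c3 a b d → ψ y = c3 u v w → u ≠ v → u ≠ w → v ≠ w →
      (∀ z, z = u ∨ z = v ∨ z = w → z ≠ a ∧ z ≠ b ∧ z ≠ d) → fx ρ (Subgroup.zpowers x) = fx ρ (Subgroup.zpowers y) →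
      Full ((cen ρ (fx ρ (Subgroup.zpowers x))).map ψ) {z | z ≠ a ∧ z ≠ b ∧ z ≠ d} := by
    intro x y a b d u v w hx hy huv huw hvw hd e
    have hm : y ∈ cen ρ (fx ρ (Subgroup.zpowers x)) := mem_cen.2 fun v hv => mem_fx_zpowers.1 (e ▸ hv)
    refine full_of_pair huv fun z hz zu zv => ?_
    by_cases zw : z = w
    · exact ⟨y, hm, by rw [hy, zw]⟩
    obtain ⟨g, -, hg⟩ := T.lift (swap u v * swap w z) (mem_alternatingGroup.1 (dt_mem huv (Ne.symm zw)))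
    have fx' : ∀ r, r ≠ u → r ≠ v → r ≠ w → r ≠ z → ψ g r = r := fun r h1 h2 h3 h4 => by
      rw [hg, Perm.mul_apply, swap_apply_of_ne_of_ne h3 h4, swap_apply_of_ne_of_ne h1 h2]
    have hu := hd u (Or.inl rfl)
    have hv := hd v (Or.inr (Or.inl rfl))
    have hw := hd w (Or.inr (Or.inr rfl))
    have hgx : g * x = x * g := T.comm (by
      rw [← mul_inv_eq_iff_eq_mul, hx, conj_c3, fx' a hu.1.symm hv.1.symm hw.1.symm hz.1.symm,
        fx' b hu.2.1.symm hv.2.1.symm hw.2.1.symm hz.2.1.symm, fx' d hu.2.2.symm hv.2.2.symm hw.2.2.symm hz.2.2.symm])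
    refine ⟨(g * y * g⁻¹)⁻¹, inv_mem (mem_cen.2 fun r hr => ?_), ?_⟩
    · rw [rho_mul, rho_mul, mem_cen.1 hm, rho_apply_inv]
      refine mem_fx_zpowers.2 (rho_injective ρ g ?_)
      rw [← rho_mul, hgx, rho_mul, rho_apply_inv, mem_fx_zpowers.1 hr]
    · rw [map_inv, map_mul, map_mul, map_inv, hy, conj_c3, c3_inv, hg]
      simp only [Perm.mul_apply]
      rw [swap_apply_of_ne_of_ne huw (Ne.symm zu), swap_apply_of_ne_of_ne hvw (Ne.symm zv), swap_apply_left,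
        swap_apply_left, swap_apply_right, swap_apply_of_ne_of_ne zu zv, c3_cycle zu zv huv]
  have F1 := key c c' _ _ _ _ _ _ hc.c3 hc'.c3 (ne 3 4 (by decide)) (ne 3 5 (by decide)) (ne 4 5 (by decide))
    (by rintro z (rfl | rfl | rfl) <;> exact ⟨ne _ _ (by decide), ne _ _ (by decide), ne _ _ (by decide)⟩) h1
  have F2 := key c' c _ _ _ _ _ _ hc'.c3 hc.c3 (ne 0 1 (by decide)) (ne 0 2 (by decide)) (ne 1 2 (by decide))
    (by rintro z (rfl | rfl | rfl) <;> exact ⟨ne _ _ (by decide), ne _ _ (by decide), ne _ _ (by decide)⟩) h1.symm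
  rw [← h1] at F2
  have m : ∀ i j l r : Fin 7, r ≠ i → r ≠ j → r ≠ l → f r ∈ {z | z ≠ f i ∧ z ≠ f j ∧ z ≠ f l} :=
    fun i j l r h1 h2 h3 => ⟨ne _ _ h1, ne _ _ h2, ne _ _ h3⟩
  have F3 := full_union_one F1 F2
    ⟨_, m 0 1 2 3 (by decide) (by decide) (by decide), _, m 0 1 2 4 (by decide) (by decide) (by decide), _,
      m 0 1 2 5 (by decide) (by decide) (by decide), ne _ _ (by decide), ne _ _ (by decide), ne _ _ (by decide)⟩
    ⟨_, m 3 4 5 0 (by decide) (by decide) (by decide), _, m 3 4 5 1 (by decide) (by decide) (by decide), _,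
      m 3 4 5 2 (by decide) (by decide) (by decide), ne _ _ (by decide), ne _ _ (by decide), ne _ _ (by decide)⟩
    (m 0 1 2 6 (by decide) (by decide) (by decide)) (m 3 4 5 6 (by decide) (by decide) (by decide))
  refine le_bot_iff.1 (T.fx_K ▸ le_cen_iff.1 fun y hy => ?_)
  obtain ⟨z, hz, e⟩ := mem_of_full F3 ((T.mem y).1 hy) fun x _ => by
    by_cases h0 : x ≠ f 0 ∧ x ≠ f 1 ∧ x ≠ f 2
    · exact Or.inl h0
    · right
      simp only [not_and_or, not_not] at h0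
      rcases h0 with rfl | rfl | rfl <;> exact m 3 4 5 _ (by decide) (by decide) (by decide)
  exact T.inj e ▸ hz

omit [Finite Y] [Finite V] in
theorem eq_of_range {c : Y} (h3 : c ^ 3 = 1) {v : V} (hv : v ∈ LinearMap.range (ρ c - 1)) :
    ρ c (ρ c v) - ρ c v = v := by
  obtain ⟨w, rfl⟩ := hv
  have h : ∀ w : V, w + w = 0 := fun w => by rw [← two_smul (ZMod 2), two_eq_zero', zero_smul]
  have h1 : ρ c (ρ c (ρ c w)) = w := by rw [← rho_mul, ← rho_mul, ← pow_three', h3, rho_one]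
  show ρ c (ρ c (ρ c w - w)) - ρ c (ρ c w - w) = ρ c w - w
  rw [map_sub, map_sub, h1]
  linear_combination (norm := abel) h w - h (ρ c (ρ c w))

omit [Finite V] in
/-- from a 3-element to an involution that inverts it -/
theorem NZ.tr {t c x : Y} (h : NZ ρ c x) (ht : t * t = 1) (h3 : c ^ 3 = 1) (htc : t * c = c * c * t) {m : ℕ}
    (hx : x ^ m = 1) (hm : ¬ 2 ∣ m) (h1 : t * x = x * t) (h2 : x * c = c * x) : NZ ρ t x := by
  obtain ⟨v, hv⟩ := h
  by_contra hc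
  refine hv (axb (p := 2) (elemAb_isPGroup (elemAb_zpowers (show t ^ 2 = 1 by rw [pow_two, ht]))) hx hm
    (fun b hb => ((show Commute x t from h1.symm).zpow_right _ |> fun e => (Subgroup.mem_zpowers_iff.1 hb).choose_spec ▸
      e.symm.eq)) (W := LinearMap.range (ρ c - 1)) (Inv.mono (B := Subgroup.closure {t}) (inv_closure ?_)
      (Subgroup.zpowers_eq_closure t).le) (range_inv h2) (fun w hw hw' => ?_) _ ⟨v, rfl⟩)
  · rintro t' ht' _ ⟨w, rfl⟩
    rw [show t' = t from ht', inv_eq_of_mul_eq_one_left ht, and_self]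
    refine ⟨ρ c (ρ t w) + ρ t w, ?_⟩
    show ρ c (ρ c (ρ t w) + ρ t w) - (ρ c (ρ t w) + ρ t w) = ρ t (ρ c w - w)
    rw [map_sub, ← rho_mul ρ t c, htc, rho_mul, rho_mul, map_add]
    abel
  · have h4 : w = ρ t (ρ c w) - ρ c w := by
      rw [← rho_mul, htc, rho_mul, rho_mul, mem_fx_zpowers.1 hw', eq_of_range h3 hw]
    rw [h4]
    exact not_not.1 fun e => hc ⟨_, e⟩

theorem dvd_codOn {s : Y} {l d : ℕ} [Fact l.Prime] (hl : l ≠ 2) (hd : orderOf (2 : ZMod l) = d) (hs : s ^ l = 1)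
    {U : Submodule (ZMod 2) V} (hU : ∀ v ∈ U, ρ s v ∈ U) : d ∣ codOn ρ U (Subgroup.zpowers s) := by
  have h1 : Inv ρ (Subgroup.zpowers s) U := fun b hb v hv => by
    obtain ⟨i, rfl⟩ := (mem_powers_iff_mem_zpowers.2 hb)
    induction i with
    | zero => simpa using hv
    | succ i ih => simp only [pow_succ', rho_mul]; exact hU _ (ih ⟨i, by simp⟩)
  have h2 := pow_cod_modEq (ρ := resOn ρ h1) (s := l) (by
    rw [Nat.card_zmod]; exact fun e => hl ((Nat.prime_dvd_prime_iff_eq Fact.out Nat.prime_two).1 e))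
    ((elemAb_isPGroup (elemAb_zpowers hs)).to_subgroup ((Subgroup.zpowers s).subgroupOf (Subgroup.zpowers s)))
  rw [cod_resOn_subgroupOf h1 le_rfl, Nat.card_zmod, ← ZMod.natCast_eq_natCast_iff] at h2
  rw [← hd]
  exact orderOf_dvd_of_pow_eq_one (by exact_mod_cast h2)

theorem ord5 : orderOf (2 : ZMod 5) = 4 := (orderOf_eq_iff (by norm_num)).2 (by decide)

theorem ord3 : orderOf (2 : ZMod 3) = 2 := (orderOf_eq_iff (by norm_num)).2 (by decide)

omit [Finite Y] in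
theorem NZ.pos {t s : Y} (h : NZ ρ t s) : 0 < codOn ρ (LinearMap.range (ρ t - 1)) (Subgroup.zpowers s) :=
  Nat.pos_of_ne_zero fun e => h.choose_spec (mem_fx_zpowers.1 (codOn_eq_zero_iff.1 e ⟨_, rfl⟩))

theorem T2.t6 (T : T2 K ρ ψ) (hn : 9 ≤ n) (hY : ∃ y, y ∉ K) : TL ρ ψ 6 := by
  let f := Fin.castLEEmb hn
  obtain ⟨t, ht⟩ := T.lf' hY f (swap 0 1)
  obtain ⟨c, hc⟩ := T.lf' hY f (c3 0 1 2)
  obtain ⟨c', hc'⟩ := T.lf' hY f (c3 3 4 5)
  obtain ⟨g, hg⟩ := T.lf' hY f (c3 2 3 4 * c3 4 5 6 * c3 6 7 8)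
  obtain ⟨h, hh⟩ := T.lf' hY f (swap 3 8 * swap 4 7 * swap 5 6)
  have h1 : NZ ρ t g := ht.nz T hc' hg {2, 3, 4, 5, 6, 7, 8} (by decide +kernel)
    ((Lf.np T ![0, 1, 2, 3, 4, 5] (by decide) hc hc').tr (by rw [← pow_two]; exact ht.pow T (by decide +kernel))
      (hc.pow T (by decide +kernel)) (by
        rw [← pow_two, ← mul_inv_eq_iff_eq_mul, mul_assoc, ← eq_inv_mul_iff_mul_eq, inv_eq_of_mul_eq_one_left
          (show t * t = 1 by rw [← pow_two]; exact ht.pow T (by decide +kernel))]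
        exact hc.rel T ht hc (by decide +kernel))
      (hc'.pow T (i := 3) (by decide +kernel)) (by decide) (ht.comm T hc' (by decide +kernel))
      (hc'.comm T hc (by decide +kernel)))
  have hW : Inv ρ (Subgroup.centralizer {t}) (LinearMap.range (ρ t - 1)) := fun b hb =>
    range_inv (Subgroup.mem_centralizer_singleton_iff.1 hb)
  let g' : Subgroup.centralizer {t} := ⟨g, Subgroup.mem_centralizer_singleton_iff.2 (hg.comm T ht (by decide +kernel))⟩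
  let h' : Subgroup.centralizer {t} := ⟨h, Subgroup.mem_centralizer_singleton_iff.2 (hh.comm T ht (by decide +kernel))⟩
  have h2 : h'⁻¹ * g' * h' = g' ^ 6 := by
    rw [mul_assoc, inv_mul_eq_iff_eq_mul]
    exact Subtype.ext (hg.rel T hh hg (by decide +kernel))
  have h3 := card_mul_le_cod_zpowers (ρ := resOn ρ hW) (z := g') (r := 7) (by norm_num)
    (Subtype.ext (hg.pow T (by decide +kernel))) (by decide)
    (fun e => h1.choose_spec (congrArg Subtype.val (LinearMap.congr_fun e ⟨_, _, rfl⟩))) (Finset.univ.erase 0)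
    (fun j hj => by
      rw [ZMod.card]
      obtain ⟨i, e | e⟩ := (by decide : ∀ j : ZMod 7, j ≠ 0 → ∃ i : Fin 3, j = ((1 * 2 ^ i.1 : ℕ) : ZMod 7) ∨
        j = ((6 * 2 ^ i.1 : ℕ) : ZMod 7)) j (Finset.ne_of_mem_erase hj)
      · exact ⟨1, 1, i, by simp, e⟩
      · exact ⟨h', 6, i, h2, e⟩) (m := 1) fun _ _ h => h
  refine T.tl (f.injective.ne (by decide)) ht.swap ?_
  rw [cod_zpowers]
  exact le_trans (by decide) (h3.trans (cod_le_finrank _))

theorem T2.x8 (T : T2 K ρ ψ) (hn : 9 ≤ n) (hY : ∃ y, y ∉ K) : XL ρ ψ 8 ∧ (XL ρ ψ 12 ∨ YL ρ ψ 12) := by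
  let f := Fin.castLEEmb (show 8 ≤ n by omega)
  obtain ⟨c, hc⟩ := T.lf' hY f (c3 0 1 2)
  obtain ⟨c', hc'⟩ := T.lf' hY f (c3 3 4 5)
  obtain ⟨s, hs⟩ := T.lf' hY f (c3 3 4 5 * c3 5 6 7)
  obtain ⟨g, hg⟩ := T.lf' hY f (swap 1 2)
  have h1 := hc.nz T hc' hs {3, 4, 5, 6, 7} (by decide +kernel) (Lf.np T ![0, 1, 2, 3, 4, 5] (by decide) hc hc')
  have h3 : c ^ 3 = 1 := hc.pow T (by decide +kernel)
  have h5 : s ^ 5 = 1 := hs.pow T (by decide +kernel)
  have hcs := hc.comm T hs (by decide +kernel)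
  obtain ⟨α, β, a1, b1, H⟩ := exists_has hcs (by decide) h3 (by decide) h5 h1
  have m1 : Mv ρ c s 2 1 := Mv.conj (hc.rel T hg hc (by decide +kernel)) (hs.rel T hg hs (by decide +kernel))
  have xl := fun N => T.xl (N := N) (f.injective.ne (show (0 : Fin 8) ≠ 1 by decide))
    (f.injective.ne (show (0 : Fin 8) ≠ 2 by decide)) (f.injective.ne (show (1 : Fin 8) ≠ 2 by decide)) hc.c3
  refine ⟨xl _ (le_cod_of_all (by norm_num) h3 (by norm_num) h5 a1 b1 H fun i j =>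
      Mv.all h3 h5 m1 m1 (by decide +kernel) i j _ _ H), ?_⟩
  by_cases h0 : ∀ v, ρ c v = v → ρ s v = v
  · left
    have h6 : ∀ v ∈ fx ρ (Subgroup.zpowers c), ρ c' v = v :=
      T.transfer (S := ({3, 4, 5, 6, 7} : Finset (Fin 8)).map f) (by rw [Finset.card_map]; decide)
        (fun y hy v hv => mem_fx_zpowers.2 (by
          rw [← rho_mul, ← T.comm (hy.comm (hc.fix (by decide +kernel))), rho_mul, mem_fx_zpowers.1 hv]))
        (hc'.sign.trans (by decide +kernel)) (hc'.sup (by decide +kernel)) (hs.sign.trans (by decide +kernel))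
        (hs.sup (by decide +kernel)) (hs.ne (by decide +kernel)) fun v hv => h0 v (mem_fx_zpowers.1 hv)
    have h7 := T.fx_c3 ((Fin.castLEEmb (show 7 ≤ 8 by norm_num)).trans f) (c := c) (c' := c')
      (hc.c3.trans (embP_c3 ((Fin.castLEEmb (show 7 ≤ 8 by norm_num)).trans f) 0 1 2).symm)
      (hc'.c3.trans (embP_c3 ((Fin.castLEEmb (show 7 ≤ 8 by norm_num)).trans f) 3 4 5).symm)
      fun v hv => h6 v (mem_fx_zpowers.2 hv)
    refine xl _ ?_
    have h8 := T.t6 hn hY g _ _ (f.injective.ne (by decide)) hg.swap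
    have h9 := two_cod_le (ρ := ρ) (show g * g = 1 by rw [← pow_two]; exact hg.pow T (by decide +kernel))
    rw [cod_of_fx_eq_bot h7]
    omega
  · right
    push Not at h0
    obtain ⟨γ, c1, H'⟩ := exists_has_one hcs.symm (by decide) h5 h0
    refine T.yl (f := (⟨![3, 4, 5, 6, 7], by decide⟩ : Fin 5 ↪ Fin 8).trans f) (x := s) ?_
      (le_cod_of_all' (by norm_num) h5 (by norm_num) h3 b1 a1 H.symm c1 H' fun i j =>
        Mv.all h5 h3 m1.symm m1.symm (by decide +kernel) i j)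
    rw [hs, s5, map_mul, map_mul, embP_c3, embP_c3, embP_c3, embP_c3]
    rfl

omit [Finite Y] in
theorem split_cod {t x : Y} (h : t * x = x * t) : cod ρ (Subgroup.zpowers x) =
    codOn ρ (LinearMap.range (ρ t - 1)) (Subgroup.zpowers x) +
      finrank (ZMod 2) ↥(LinearMap.range (ρ x - 1) ⊓ LinearMap.ker (ρ t - 1)) := by
  rw [cod_zpowers, finrank_eq_map_add (ρ t - 1), codOn_zpowers, ← LinearMap.range_comp, ← LinearMap.range_comp,
    show (ρ t - 1) ∘ₗ (ρ x - 1) = (ρ x - 1) ∘ₗ (ρ t - 1) from LinearMap.ext (sub_one_comm h)]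

omit [Finite Y] [Finite V] in
theorem ker_inv {t x : Y} (h : t * x = x * t) : ∀ v ∈ LinearMap.ker (ρ t - 1), ρ x v ∈ LinearMap.ker (ρ t - 1) :=
  fun v hv => sub_eq_zero.2 (by
    show ρ t (ρ x v) = ρ x v
    rw [← rho_mul, h, rho_mul, show ρ t v = v from sub_eq_zero.1 hv])

omit [Finite Y] [Finite V] in
/-- the alternating group on at least five points acts faithfully or trivially on a section -/
theorem T2.transfer2 (T : T2 K ρ ψ) (f : Fin 5 ↪ Fin n) {U W : Submodule (ZMod 2) V}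
    (hU : ∀ y γ, Lf ψ f γ y → ∀ v ∈ U, ρ y v ∈ U) (hW : ∀ y γ, Lf ψ f γ y → ∀ v ∈ W, ρ y v ∈ W) {y y' : Y}
    {γ γ' : Perm (Fin 5)} (hy : Lf ψ f γ y) (hy' : Lf ψ f γ' y') (h1 : sign γ = 1) (h2 : sign γ' = 1) (h3 : γ' ≠ 1)
    (h : ∀ v ∈ U, ρ y' v - v ∈ W) : ∀ v ∈ U, ρ y v - v ∈ W := by
  obtain ⟨ι, hι, -⟩ := T.iota T.inj
  let θ := ι.comp (emb f)
  have hθ : ∀ σ, Lf ψ f σ.1 (θ σ) := fun σ => hι _
  have iU : Inv ρ θ.range U := by rintro _ ⟨σ, rfl⟩; exact hU _ _ (hθ σ)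
  have iW : Inv ρ θ.range W := by rintro _ ⟨σ, rfl⟩; exact hW _ _ (hθ σ)
  have hN : ((lk ρ W U).comap θ).Normal := ⟨fun a ha g => by
    rw [Subgroup.mem_comap, map_mul, map_mul, map_inv]
    exact conj_mem_lk iW iU ⟨g, rfl⟩ ⟨a, rfl⟩ ha⟩
  have e : θ ⟨γ, mem_alternatingGroup.2 h1⟩ = y := T.inj ((hθ _).trans hy.symm)
  have e' : θ ⟨γ', mem_alternatingGroup.2 h2⟩ = y' := T.inj ((hθ _).trans hy'.symm)
  have hm : ⟨γ', mem_alternatingGroup.2 h2⟩ ∈ (lk ρ W U).comap θ := (mem_lk iW ⟨_, rfl⟩).2 (e' ▸ h)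
  rcases alternatingGroup.normal_subgroup_eq_bot_or_eq_top (N := (lk ρ W U).comap θ) (by simp) with h4 | h4
  · rw [h4, Subgroup.mem_bot] at hm
    exact (h3 (congrArg (fun x : alternatingGroup (Fin 5) => (x : Perm (Fin 5))) hm)).elim
  · rw [← e]
    exact (mem_lk iW ⟨_, rfl⟩).1 (Subgroup.mem_comap.1 (h4 ▸ Subgroup.mem_top _))

theorem T2.small (T : T2 K ρ ψ) (hY : ∃ y, y ∉ K) : TL ρ ψ 4 ∧ YL ρ ψ 8 ∧ (XL ρ ψ 8 ∨ YL ρ ψ 12) := by
  let f := Fin.castLEEmb T.deg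
  obtain ⟨c, hc⟩ := T.lf' hY f (c3 0 1 2)
  obtain ⟨c', hc'⟩ := T.lf' hY f (c3 4 5 6)
  obtain ⟨c'', hc''⟩ := T.lf' hY f (c3 3 4 5)
  obtain ⟨s, hs⟩ := T.lf' hY f (c3 0 1 2 * c3 2 3 4)
  obtain ⟨t, ht⟩ := T.lf' hY f (swap 5 6)
  obtain ⟨g, hg⟩ := T.lf' hY f (swap 1 2)
  have : Fact (Nat.Prime 5) := ⟨by norm_num⟩
  have htt : t * t = 1 := by rw [← pow_two]; exact ht.pow T (by decide +kernel)
  have h3 : c ^ 3 = 1 := hc.pow T (by decide +kernel)
  have h3' : c'' ^ 3 = 1 := hc''.pow T (by decide +kernel)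
  have h5 : s ^ 5 = 1 := hs.pow T (by decide +kernel)
  have hts := ht.comm T hs (by decide +kernel)
  have htc := ht.comm T hc (by decide +kernel)
  have h1 : NZ ρ t s := ht.nz T hc hs {0, 1, 2, 3, 4} (by decide +kernel)
    ((Lf.np T ![4, 5, 6, 0, 1, 2] (by decide) hc' hc).tr htt (hc'.pow T (by decide +kernel)) (by
        rw [← pow_two, ← mul_inv_eq_iff_eq_mul, mul_assoc, ← eq_inv_mul_iff_mul_eq, inv_eq_of_mul_eq_one_left htt]
        exact hc'.rel T ht hc' (by decide +kernel)) h3 (by decide) htc (hc.comm T hc' (by decide +kernel)))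
  have hWU : LinearMap.range (ρ t - 1) ≤ LinearMap.ker (ρ t - 1) := by
    rintro _ ⟨v, rfl⟩
    exact sub_eq_zero.2 (sq_zero htt v)
  have a1 := h1.pos
  have a2 := dvd_codOn (l := 5) (by decide) ord5 h5 (range_inv (σ := ρ) hts.symm)
  have a3 := dvd_codOn (l := 5) (by decide) ord5 h5 (ker_inv (ρ := ρ) hts)
  have a4 := codOn_mono (ρ := ρ) hWU (le_refl (Subgroup.zpowers s))
  have a5 := split_cod (ρ := ρ) hts
  have a6 : codOn ρ (LinearMap.ker (ρ t - 1)) (Subgroup.zpowers s) ≤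
      finrank (ZMod 2) ↥(LinearMap.range (ρ s - 1) ⊓ LinearMap.ker (ρ t - 1)) := by
    rw [codOn_zpowers]
    refine Submodule.finrank_mono ?_
    rintro _ ⟨v, hv, rfl⟩
    exact ⟨⟨v, rfl⟩, Submodule.sub_mem _ (ker_inv hts v hv) hv⟩
  have a7 := codOn_le_finrank (ρ := ρ) (LinearMap.range (ρ t - 1)) (Subgroup.zpowers s)
  have yl := fun N => T.yl (N := N) (Lf.s5 (by norm_num) hs)
  have xl := fun N => T.xl (N := N) (f.injective.ne (show (0 : Fin 7) ≠ 1 by decide))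
    (f.injective.ne (show (0 : Fin 7) ≠ 2 by decide)) (f.injective.ne (show (1 : Fin 7) ≠ 2 by decide)) hc.c3
  refine ⟨T.tl (f.injective.ne (by decide)) ht.swap (by rw [cod_zpowers]; omega), yl _ (by omega), ?_⟩
  by_cases h0 : ∀ v, ρ c'' v = v → ρ c v = v
  · left
    have h7 := T.fx_c3 ((⟨![3, 4, 5, 0, 1, 2, 6], by decide⟩ : Fin 7 ↪ Fin 7).trans f) (c := c'') (c' := c)
      (hc''.c3.trans (embP_c3 ((⟨![3, 4, 5, 0, 1, 2, 6], by decide⟩ : Fin 7 ↪ Fin 7).trans f) 0 1 2).symm)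
      (hc.c3.trans (embP_c3 ((⟨![3, 4, 5, 0, 1, 2, 6], by decide⟩ : Fin 7 ↪ Fin 7).trans f) 3 4 5).symm) h0
    refine T.xl (f.injective.ne (by decide)) (f.injective.ne (by decide)) (f.injective.ne (by decide)) hc''.c3 ?_
    have := cod_le_finrank (ρ := ρ) (Subgroup.zpowers s)
    rw [cod_of_fx_eq_bot h7]
    omega
  push Not at h0
  have hcc := hc.comm T hc'' (by decide +kernel)
  obtain ⟨α, β, b1, b2, H⟩ := exists_has hcc (by decide) h3 (by decide) h3'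
    (Lf.np T ![0, 1, 2, 3, 4, 5] (by decide) hc hc'')
  obtain ⟨γ, b3, H'⟩ := exists_has_one hcc (by decide) h3 h0
  have m1 : Mv ρ c c'' 2 1 := Mv.conj (hc.rel T hg hc (by decide +kernel)) (hc''.rel T hg hc'' (by decide +kernel))
  have b4 := le_cod_of_all' (by norm_num) h3 (by norm_num) h3' b1 b2 H b3 H' fun i j =>
    Mv.all h3 h3' m1 m1 (by decide +kernel) i j
  by_cases h12 : 12 ≤ cod ρ (Subgroup.zpowers s)
  · exact Or.inr (yl _ h12)
  left
  have c1 : (LinearMap.range (ρ t - 1)).map (ρ s - 1) = (LinearMap.ker (ρ t - 1)).map (ρ s - 1) :=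
    Submodule.eq_of_le_of_finrank_le (Submodule.map_mono hWU) (by rw [← codOn_zpowers, ← codOn_zpowers]; omega)
  let f5 := (Fin.castLEEmb (show 5 ≤ 7 by norm_num)).trans f
  have cm : ∀ y γ, Lf ψ f5 γ y → t * y = y * t := fun y γ hy => T.comm (Sup.comm (S := Set.range f5)
    (fun x hx => by rw [hy]; exact embP_other f5 γ fun i e => hx ⟨i, e⟩) (by
      rintro _ ⟨i, rfl⟩
      show ψ t (f _) = f _
      rw [ht, embP_apply]
      congr 1
      revert i; decide +kernel)).symm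
  have c2 : ∀ v ∈ LinearMap.ker (ρ t - 1), ρ c v - v ∈ LinearMap.range (ρ t - 1) :=
    T.transfer2 f5 (fun y γ hy => ker_inv (cm y γ hy)) (fun y γ hy => range_inv (cm y γ hy).symm) (γ := c3 0 1 2)
      (γ' := s5) (hc.c3.trans (embP_c3 f5 0 1 2).symm) (Lf.s5 (by norm_num) hs) (by decide +kernel) (by decide +kernel)
      (by decide +kernel) fun v hv => by
        obtain ⟨w, hw, e⟩ : (ρ s - 1) v ∈ (LinearMap.range (ρ t - 1)).map (ρ s - 1) := c1 ▸ ⟨v, hv, rfl⟩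
        show (ρ s - 1) v ∈ _
        rw [← e]
        exact Submodule.sub_mem _ (range_inv hts.symm w hw) hw
  have c3 := split_cod (ρ := ρ) htc
  have c4 : finrank (ZMod 2) ↥(LinearMap.range (ρ c - 1) ⊓ LinearMap.ker (ρ t - 1)) =
      codOn ρ (LinearMap.range (ρ t - 1)) (Subgroup.zpowers c) := by
    rw [codOn_zpowers]
    have c6 : LinearMap.range (ρ c - 1) ⊓ LinearMap.ker (ρ t - 1) = (LinearMap.range (ρ t - 1)).map (ρ c - 1) := by
      refine le_antisymm (fun v hv => ?_) ?_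
      · have := c2 _ (ker_inv htc v hv.2)
        rw [eq_of_range h3 hv.1] at this
        exact ⟨ρ c v, range_inv htc.symm v this, eq_of_range h3 hv.1⟩
      · rintro _ ⟨v, hv, rfl⟩
        exact ⟨⟨v, rfl⟩, hWU (Submodule.sub_mem _ (range_inv htc.symm v hv) hv)⟩
    rw [c6]
  have c5 := dvd_codOn (l := 3) (by decide) ord3 h3 (range_inv (σ := ρ) htc.symm)
  exact xl _ (by omega)

end Cfsg.Agent.TwoF.Alt
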