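import Cfsg.Agent.TwoF.Alt.Frame
import Cfsg.Agent.H189.Eig

/-!
# Joint eigenvalues of two commuting elements of odd order on a module over `ZMod 2`
-/

set_option autoImplicit false

namespace Cfsg.Agent.TwoF.Alt

open Module Gen H189
open scoped TensorProduct

/-- the algebraic closure of the field with two elements -/
abbrev L2 : Type := AlgebraicClosure (ZMod 2)

variable {Y : Type} [Group Y] {V : Type} [AddCommGroup V] [Module (ZMod 2) V] {ρ : Representation (ZMod 2) Y V}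
  {s t : Y} {α β : L2}

/-- `(α, β)` is a pair of eigenvalues of `(s, t)` -/
def Has (ρ : Representation (ZMod 2) Y V) (s t : Y) (α β : L2) : Prop :=
  ∃ v : L2 ⊗[ZMod 2] V, v ≠ 0 ∧ bc L2 ρ s v = α • v ∧ bc L2 ρ t v = β • v

theorem Has.symm (h : Has ρ s t α β) : Has ρ t s β α := h.imp fun _ h => ⟨h.1, h.2.2, h.2.1⟩

theorem Has.sq (h : Has ρ s t α β) : Has ρ s t (α ^ 2) (β ^ 2) := by
  obtain ⟨v, h0, h1, h2⟩ := h
  let τ := (FiniteField.frobeniusAlgHom (ZMod 2) L2).toLinearMap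
  have hτ : ∀ c, τ c = c ^ 2 := fun c => by
    show c ^ Fintype.card (ZMod 2) = _
    rw [ZMod.card]
  have key : ∀ (c : L2) (x : L2 ⊗[ZMod 2] V), τ.rTensor V (c • x) = c ^ 2 • τ.rTensor V x := by
    intro c x
    induction x with
    | zero => simp
    | tmul a v => simp [TensorProduct.smul_tmul', hτ, mul_pow]
    | add x y hx hy => rw [smul_add, map_add, map_add, hx, hy, smul_add]
  have comm : ∀ (g : Y) (x : L2 ⊗[ZMod 2] V), bc L2 ρ g (τ.rTensor V x) = τ.rTensor V (bc L2 ρ g x) := by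
    intro g x
    induction x with
    | zero => simp
    | tmul a v => simp [bc_tmul]
    | add x y hx hy => rw [map_add, map_add, hx, hy, map_add, map_add]
  have inj : Function.Injective (τ.rTensor V) :=
    Module.Flat.rTensor_preserves_injective_linearMap τ (FiniteField.frobeniusAlgHom (ZMod 2) L2).injective
  exact ⟨τ.rTensor V v, fun e => h0 (inj (e.trans (map_zero _).symm)), by rw [comm, h1, key], by rw [comm, h2, key]⟩

theorem eig_pow {k : Type*} [Field k] {W : Type*} [AddCommGroup W] [Module k W] {σ : Representation k Y W} {v : W}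
    {a : k} (h : σ s v = a • v) (i : ℕ) : σ (s ^ i) v = a ^ i • v := by
  induction i with
  | zero => rw [pow_zero, pow_zero, rho_one, one_smul]
  | succ i ih => rw [pow_succ, rho_mul, h, map_smul, ih, smul_smul, pow_succ']

theorem Has.conj (h : Has ρ s t α β) {g : Y} {i j : ℕ} (h1 : s * g = g * s ^ i) (h2 : t * g = g * t ^ j) :
    Has ρ s t (α ^ i) (β ^ j) := by
  obtain ⟨v, h0, e1, e2⟩ := h
  exact ⟨bc L2 ρ g v, Wt.ne_zero _ g h0, by rw [← rho_mul, h1, rho_mul, eig_pow e1, map_smul],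
    by rw [← rho_mul, h2, rho_mul, eig_pow e2, map_smul]⟩

theorem Has.swap (h : Has ρ s t α β) {g : Y} {i j : ℕ} (h1 : s * g = g * t ^ i) (h2 : t * g = g * s ^ j) :
    Has ρ s t (β ^ i) (α ^ j) := by
  obtain ⟨v, h0, e1, e2⟩ := h
  exact ⟨bc L2 ρ g v, Wt.ne_zero _ g h0, by rw [← rho_mul, h1, rho_mul, eig_pow e2, map_smul],
    by rw [← rho_mul, h2, rho_mul, eig_pow e1, map_smul]⟩

theorem Has.pow_eq (h : Has ρ s t α β) {l : ℕ} (hs : s ^ l = 1) : α ^ l = 1 := by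
  obtain ⟨v, h0, e1, -⟩ := h
  exact Eig.pow_eq_one_of_eig (by rw [← map_pow, hs, map_one]) h0 e1

theorem cast_ne_of_odd {l : ℕ} (hl : Odd l) : (l : L2) ≠ 0 := fun e =>
  (Nat.two_dvd_ne_zero.2 (Nat.odd_iff.1 hl)) ((CharP.cast_eq_zero_iff L2 2 l).1 e)

theorem tmul_ne {v : V} (h : v ≠ 0) : ((1 : L2) ⊗ₜ[ZMod 2] v) ≠ 0 := fun e => h <| by
  have := baseChange_injective (k := ZMod 2) L2 (V := ZMod 2) (W := V)
    (a₁ := LinearMap.toSpanSingleton _ _ v) (a₂ := 0) (by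
      refine TensorProduct.AlgebraTensorModule.ext fun a c => ?_
      simp only [LinearMap.baseChange_tmul, LinearMap.toSpanSingleton_apply, LinearMap.zero_apply,
        TensorProduct.tmul_zero, TensorProduct.tmul_smul]
      rw [← mul_one a, ← smul_eq_mul, ← TensorProduct.smul_tmul', e, smul_zero, smul_zero])
  simpa using LinearMap.congr_fun this 1

variable [FiniteDimensional (ZMod 2) V]

theorem exists_has_aux (hc : s * t = t * s) (U : Submodule L2 (L2 ⊗[ZMod 2] V)) (h0 : U ≠ ⊥)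
    (h1 : ∀ v ∈ U, bc L2 ρ s v ∈ U) (h2 : ∀ v ∈ U, bc L2 ρ t v ∈ U) :
    ∃ v ∈ U, v ≠ 0 ∧ ∃ α β : L2, bc L2 ρ s v = α • v ∧ bc L2 ρ t v = β • v := by
  obtain ⟨w, hw, w0, a, ha⟩ := Eig.exists_eig (bc L2 ρ s) U h1 h0
  obtain ⟨v, hv, v0, b, hb⟩ := Eig.exists_eig (bc L2 ρ t) (U ⊓ End.eigenspace (bc L2 ρ s) a)
    (fun v hv => ⟨h2 v hv.1, End.mem_eigenspace_iff.2 (by
      rw [← rho_mul, hc, rho_mul, End.mem_eigenspace_iff.1 hv.2, map_smul])⟩)
    (Submodule.ne_bot_iff _ |>.2 ⟨w, ⟨hw, End.mem_eigenspace_iff.2 ha⟩, w0⟩)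
  exact ⟨v, hv.1, v0, a, b, End.mem_eigenspace_iff.1 hv.2, hb⟩

omit [FiniteDimensional (ZMod 2) V] in
theorem range_inv {k : Type*} [Field k] {W : Type*} [AddCommGroup W] [Module k W] {σ : Representation k Y W}
    {a g : Y} (h : g * a = a * g) : ∀ v ∈ LinearMap.range (σ a - 1), σ g v ∈ LinearMap.range (σ a - 1) := by
  rintro _ ⟨v, rfl⟩
  refine ⟨σ g v, ?_⟩
  show σ a (σ g v) - σ g v = σ g (σ a v - v)
  rw [map_sub, ← rho_mul, ← rho_mul, h]

omit [FiniteDimensional (ZMod 2) V] in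
theorem ne_one_of_range {l : ℕ} (hl : Odd l) (hs : s ^ l = 1) {v : L2 ⊗[ZMod 2] V} (h0 : v ≠ 0)
    (hv : v ∈ LinearMap.range (bc L2 ρ s - 1)) (h : bc L2 ρ s v = α • v) : α ≠ 1 := fun e =>
  h0 (Eig.geom_zero (by rw [← map_pow, hs, map_one]) hv (by rw [h, e, one_smul]) (cast_ne_of_odd hl))

/-- both eigenvalues non-trivial -/
theorem exists_has (hc : s * t = t * s) {l m : ℕ} (hl : Odd l) (hs : s ^ l = 1) (hm : Odd m) (ht : t ^ m = 1)
    (h : ∃ v, ρ t (ρ s v - v) ≠ ρ s v - v) : ∃ α β : L2, α ≠ 1 ∧ β ≠ 1 ∧ Has ρ s t α β := by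
  obtain ⟨v, hv⟩ := h
  obtain ⟨w, hw, w0, a, b, ha, hb⟩ := exists_has_aux (ρ := ρ) hc
    (LinearMap.range (bc L2 ρ s - 1) ⊓ LinearMap.range (bc L2 ρ t - 1))
    ((Submodule.ne_bot_iff _).2 ⟨_, ⟨
      ⟨(1 : L2) ⊗ₜ (ρ t v - v), by
        show (1 : L2) ⊗ₜ[ZMod 2] ρ s (ρ t v - v) - 1 ⊗ₜ (ρ t v - v) = 1 ⊗ₜ (ρ t (ρ s v - v) - (ρ s v - v))
        rw [← TensorProduct.tmul_sub, map_sub, map_sub, ← rho_mul, ← rho_mul, hc]
        congr 1; abel⟩,
      ⟨(1 : L2) ⊗ₜ (ρ s v - v), (TensorProduct.tmul_sub _ _ _).symm⟩⟩, tmul_ne (sub_ne_zero.2 hv)⟩)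
    (fun v hv => ⟨range_inv rfl v hv.1, range_inv hc v hv.2⟩)
    (fun v hv => ⟨range_inv hc.symm v hv.1, range_inv rfl v hv.2⟩)
  exact ⟨a, b, ne_one_of_range hl hs w0 hw.1 ha, ne_one_of_range hm ht w0 hw.2 hb, w, w0, ha, hb⟩

/-- the second eigenvalue trivial -/
theorem exists_has_one (hc : s * t = t * s) {l : ℕ} (hl : Odd l) (hs : s ^ l = 1)
    (h : ∃ v, ρ t v = v ∧ ρ s v ≠ v) : ∃ α : L2, α ≠ 1 ∧ Has ρ s t α 1 := by
  obtain ⟨v, hv, hv'⟩ := h
  obtain ⟨w, hw, w0, a, ha⟩ := Eig.exists_eig (bc L2 ρ s)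
    (LinearMap.range (bc L2 ρ s - 1) ⊓ End.eigenspace (bc L2 ρ t) 1)
    (fun v hv => ⟨range_inv rfl v hv.1, End.mem_eigenspace_iff.2 (by
      rw [← rho_mul, ← hc, rho_mul, End.mem_eigenspace_iff.1 hv.2, map_smul])⟩)
    ((Submodule.ne_bot_iff _).2 ⟨(1 : L2) ⊗ₜ (ρ s v - v), ⟨⟨1 ⊗ₜ v, (TensorProduct.tmul_sub _ _ _).symm⟩,
      End.mem_eigenspace_iff.2 (by rw [bc_tmul, map_sub, ← rho_mul, ← hc, rho_mul, hv, one_smul])⟩,
      tmul_ne (sub_ne_zero.2 hv')⟩)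
  exact ⟨a, ne_one_of_range hl hs w0 hw.1 ha, w, w0, ha, End.mem_eigenspace_iff.1 hw.2⟩

omit [FiniteDimensional (ZMod 2) V] in
theorem eig_le_range {k : Type*} [Field k] {W : Type*} [AddCommGroup W] [Module k W] {f : End k W} {a : k}
    (h : a ≠ 1) : f.eigenspace a ≤ LinearMap.range (f - 1) := fun v hv => ⟨(a - 1)⁻¹ • v, by
  rw [map_smul, LinearMap.sub_apply, End.mem_eigenspace_iff.1 hv, End.one_apply, ← one_smul k v, smul_smul, mul_one,
    ← sub_smul, smul_smul, inv_mul_cancel₀ (sub_ne_zero.2 h)]⟩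

variable [Finite Y]

/-- counting the pairs -/
theorem card_le_cod {ι : Type} [Fintype ι] (a b : ι → L2) (hi : ∀ i j, a i = a j → b i = b j → i = j)
    (h1 : ∀ i, a i ≠ 1) (h : ∀ i, Has ρ s t (a i) (b i)) : Fintype.card ι ≤ cod ρ (Subgroup.zpowers s) := by
  choose v h0 e1 e2 using h
  have hl := Wt.linearIndependent_of_wt (fun y : Bool => if y then bc L2 ρ s else bc L2 ρ t) v
    (fun i y => if y then a i else b i) (fun i j e => hi i j (congrFun e true) (congrFun e false)) h0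
    (fun i y => by cases y; exacts [e2 i, e1 i])
  rw [← cod_bc L2, cod_zpowers]
  exact (LinearIndependent.of_comp (LinearMap.range (bc L2 ρ s - 1)).subtype
    (v := fun i => ⟨v i, eig_le_range (h1 i) (End.mem_eigenspace_iff.2 (e1 i))⟩) hl).fintype_card_le_finrank

/-- counting with multiplicities -/
theorem mul_le_cod {ι : Type} [Fintype ι] (a : ι → L2) (hi : Function.Injective a) (h1 : ∀ i, a i ≠ 1) {m : ℕ}
    (h : ∀ i, m ≤ finrank L2 (End.eigenspace (bc L2 ρ s) (a i))) : Fintype.card ι * m ≤ cod ρ (Subgroup.zpowers s) := by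
  rw [← cod_bc L2, cod_zpowers]
  refine le_trans ?_ (sum_finrank_le_of_indep ((End.eigenspaces_iSupIndep (bc L2 ρ s)).comp hi) Finset.univ
    fun i _ => eig_le_range (h1 i))
  rw [← smul_eq_mul, ← Finset.card_univ]
  exact Finset.card_nsmul_le_sum _ _ _ fun i _ => h i

omit [FiniteDimensional (ZMod 2) V] [Finite Y] in
theorem pow_inj {l : ℕ} (hl : l.Prime) (h : α ^ l = 1) (h1 : α ≠ 1) {i j : ℕ} (hi : i < l) (hj : j < l)
    (e : α ^ i = α ^ j) : i = j := by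
  have : Fact l.Prime := ⟨hl⟩
  have := orderOf_eq_prime h h1
  exact pow_injOn_Iio_orderOf (by rwa [this]) (by rwa [this]) e

/-- the move `(α, β) ↦ (α ^ u, β ^ v)` -/
def Mv (ρ : Representation (ZMod 2) Y V) (s t : Y) (u v : ℕ) : Prop :=
  ∀ α β, Has ρ s t α β → Has ρ s t (α ^ u) (β ^ v)

section
omit [FiniteDimensional (ZMod 2) V] [Finite Y]

theorem Mv.sq : Mv ρ s t 2 2 := fun _ _ h => h.sq

theorem Mv.one : Mv ρ s t 1 1 := fun _ _ h => by rwa [pow_one, pow_one]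

theorem Mv.conj {g : Y} {i j : ℕ} (h1 : s * g = g * s ^ i) (h2 : t * g = g * t ^ j) : Mv ρ s t i j :=
  fun _ _ h => h.conj h1 h2

theorem Mv.symm {u v : ℕ} (h : Mv ρ s t u v) : Mv ρ t s v u := fun _ _ e => (h _ _ e.symm).symm

theorem Mv.mul {u v u' v' : ℕ} (h : Mv ρ s t u v) (h' : Mv ρ s t u' v') : Mv ρ s t (u * u') (v * v') :=
  fun _ _ e => by rw [pow_mul, pow_mul]; exact h' _ _ (h _ _ e)

theorem Mv.pow {u v : ℕ} (h : Mv ρ s t u v) (n : ℕ) : Mv ρ s t (u ^ n) (v ^ n) := by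
  induction n with
  | zero => exact Mv.one
  | succ n ih => exact ih.mul h

theorem Mv.mod {u v l m : ℕ} (h : Mv ρ s t u v) (hs : s ^ l = 1) (ht : t ^ m = 1) : Mv ρ s t (u % l) (v % m) :=
  fun _ _ e => by
    rw [← pow_eq_pow_mod u (e.pow_eq hs), ← pow_eq_pow_mod v (e.symm.pow_eq ht)]
    exact h _ _ e

/-- all moves -/
theorem Mv.all {l m u v u' v' : ℕ} (hs : s ^ l = 1) (ht : t ^ m = 1) (h : Mv ρ s t u v) (h' : Mv ρ s t u' v')
    (H : ∀ i : Fin (l - 1), ∀ j : Fin (m - 1), ∃ a b c : Fin 4,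
      2 ^ a.1 * u ^ b.1 * u' ^ c.1 % l = i + 1 ∧ 2 ^ a.1 * v ^ b.1 * v' ^ c.1 % m = j + 1)
    (i : Fin (l - 1)) (j : Fin (m - 1)) : Mv ρ s t (i + 1) (j + 1) := by
  obtain ⟨a, b, c, e1, e2⟩ := H i j
  rw [← e1, ← e2]
  exact (((Mv.sq.pow a).mul (h.pow b)).mul (h'.pow c)).mod hs ht

end

/-- all pairs of non-trivial eigenvalues occur -/
theorem le_cod_of_all {l m : ℕ} (hl : l.Prime) (hs : s ^ l = 1) (hm : m.Prime) (ht : t ^ m = 1) (h1 : α ≠ 1)
    (h2 : β ≠ 1) (h : Has ρ s t α β) (H : ∀ (i : Fin (l - 1)) (j : Fin (m - 1)), Has ρ s t (α ^ (i.1 + 1)) (β ^ (j.1 + 1))) :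
    (l - 1) * (m - 1) ≤ cod ρ (Subgroup.zpowers s) := by
  have := card_le_cod (ι := Fin (l - 1) × Fin (m - 1)) (fun x => α ^ (x.1.1 + 1)) (fun x => β ^ (x.2.1 + 1))
    (fun x y e e' => Prod.ext
      (Fin.ext (Nat.succ_injective (pow_inj hl (h.pow_eq hs) h1 (by omega) (by omega) e)))
      (Fin.ext (Nat.succ_injective (pow_inj hm (h.symm.pow_eq ht) h2 (by omega) (by omega) e'))))
    (fun x e => Nat.succ_ne_zero _ (pow_inj hl (h.pow_eq hs) h1 (by omega) hl.pos (e.trans (pow_zero α).symm)))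
    fun x => H x.1 x.2
  simpa using this

/-- all pairs of non-trivial eigenvalues occur, and also the pairs with trivial second entry -/
theorem le_cod_of_all' {l m : ℕ} (hl : l.Prime) (hs : s ^ l = 1) (hm : m.Prime) (ht : t ^ m = 1) (h1 : α ≠ 1)
    (h2 : β ≠ 1) (h : Has ρ s t α β) {γ : L2} (h3 : γ ≠ 1) (h' : Has ρ s t γ 1)
    (H : ∀ (i : Fin (l - 1)) (j : Fin (m - 1)), Mv ρ s t (i + 1) (j + 1)) :
    (l - 1) * m ≤ cod ρ (Subgroup.zpowers s) := by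
  have hm2 := hm.two_le
  have := card_le_cod (ρ := ρ) (s := s) (t := t) (ι := Fin (l - 1) × Option (Fin (m - 1)))
    (fun x => x.2.elim γ (fun _ => α) ^ (x.1.1 + 1)) (fun x => x.2.elim 1 fun j => β ^ (j.1 + 1)) ?_ ?_ ?_
  · rwa [Fintype.card_prod, Fintype.card_option, Fintype.card_fin, Fintype.card_fin, Nat.sub_add_cancel hm.pos] at this
  · have hb : ∀ j : Fin (m - 1), β ^ (j.1 + 1) ≠ 1 := fun j e =>
      Nat.succ_ne_zero _ (pow_inj hm (h.symm.pow_eq ht) h2 (by omega) hm.pos (e.trans (pow_zero β).symm))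
    rintro ⟨i, _ | j⟩ ⟨i', _ | j'⟩ e e'
    · exact Prod.ext (Fin.ext (Nat.succ_injective (pow_inj hl (h'.pow_eq hs) h3 (by omega) (by omega) e))) rfl
    · exact (hb j' e'.symm).elim
    · exact (hb j e').elim
    · exact Prod.ext (Fin.ext (Nat.succ_injective (pow_inj hl (h.pow_eq hs) h1 (by omega) (by omega) e)))
        (congrArg some (Fin.ext (Nat.succ_injective (pow_inj hm (h.symm.pow_eq ht) h2 (by omega) (by omega) e'))))
  · rintro ⟨i, _ | j⟩ e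
    · exact Nat.succ_ne_zero _ (pow_inj hl (h'.pow_eq hs) h3 (by omega) hl.pos (e.trans (pow_zero γ).symm))
    · exact Nat.succ_ne_zero _ (pow_inj hl (h.pow_eq hs) h1 (by omega) hl.pos (e.trans (pow_zero α).symm))
  · rintro ⟨i, _ | j⟩
    · have := H i ⟨0, by omega⟩ _ _ h'
      rwa [one_pow] at this
    · exact H i j _ _ h

end Cfsg.Agent.TwoF.Alt
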