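import Cfsg.Agent.TwoF.Alt.Odd1

/-!
# Alternating groups, odd characteristic: the natural module (helper10)

`pn_of_small`: if a double transposition negates only a small subspace, property `PN` holds; `nrel_of_pn`: `PN` gives a vector
with the relations of `e_1 - e_2`.  `Fr.deep_one`: trivial centre, characteristic three.
-/

set_option autoImplicit false

namespace Cfsg.Agent.TwoF.Alt

open Module Equiv Equiv.Perm Gen H189 H189.Cyc H189.Emb H189.NatMod H189.AltOdd H189.AltOddDim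

section Rel

variable {α : Type} [Fintype α] [DecidableEq α] {k : Type} [Field k] {V : Type} [AddCommGroup V] [Module k V]
  [FiniteDimensional k V] {R : alternatingGroup α →* End k V}

theorem pn_of_small (h2 : (2 : k) ≠ 0) (hn : 9 ≤ Fintype.card α)
    (H : ∀ f : Fin 4 ↪ α, finrank k (LinearMap.ker (R (emb f Z1) + 1)) ≤ 5) : PN R := by
  intro f7 v hv
  obtain ⟨j, hj⟩ : ∃ j, Fintype.card α = j + 4 := ⟨Fintype.card α - 4, by omega⟩
  have hLow := low_three.{0, 0} h2 j (by omega)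
  let f : Fin 4 ↪ α := (Fin.castLEEmb (by norm_num : 4 ≤ 7)).trans f7
  obtain ⟨h, hd, hcov⟩ := exists_compl f hj
  let Q : Representation k (alternatingGroup (Fin 4)) V := R.comp (emb f)
  let S := R.comp (emb h)
  have hcomm : ∀ x y v, Q x (S y v) = S y (Q x v) := fun x y v => by
    show R (emb f x) (R (emb h y) v) = R (emb h y) (R (emb f x) v)
    rw [← rho_mul R, emb_comm f h hd, rho_mul R]
  have hQ : ∀ x y v, Q (x * y) v = Q x (Q y v) := rho_mul Q
  have r2 : (Z2 : alternatingGroup (Fin 4)) * Z2 = 1 := by decide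
  have r3 : (Z1 : alternatingGroup (Fin 4)) * Z2 = Z2 * Z1 := by decide
  have i2' : ∀ v, Q Z2 (Q Z2 v) = v := fun v => by rw [← hQ, r2, rho_one]
  have c12 : ∀ v, Q Z1 (Q Z2 v) = Q Z2 (Q Z1 v) := fun v => by rw [← hQ, ← hQ, r3]
  obtain ⟨-, d1, d2⟩ := four_dim h2 Q
  have d3 := inv_split h2 (Q Z2) i2' (LinearMap.ker (Q Z1 + 1)) fun v hv => by
    rw [mem_km] at hv ⊢; rw [c12, hv, map_neg]
  have d4 : finrank k (LinearMap.ker (Q Z1 + 1)) ≤ 5 := H f
  have t2 := trivial_of_low hLow S (LinearMap.ker (Q Z1 + 1) ⊓ LinearMap.ker (Q Z2 - 1))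
    (fun g v hv => ⟨mem_km.2 (by rw [hcomm, mem_km.1 hv.1, map_neg]), mem_kp.2 (by rw [hcomm, mem_kp.1 hv.2])⟩)
    (by omega)
  have t3 := trivial_of_low hLow S (LinearMap.ker (Q Z1 + 1) ⊓ LinearMap.ker (Q Z2 + 1))
    (fun g v hv => ⟨mem_km.2 (by rw [hcomm, mem_km.1 hv.1, map_neg]),
      mem_km.2 (by rw [hcomm, mem_km.1 hv.2, map_neg])⟩) (by omega)
  have hv' : Q Z1 v = -v := by
    show R (emb f Z1) v = -v
    rw [emb_dt]; exact hv
  have fixed : ∀ g, S g v = v := fun g => by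
    have e1 := t2 g (v + Q Z2 v) ⟨mem_km.2 (by rw [map_add, c12, hv', map_neg]; abel),
      mem_kp.2 (by rw [map_add, i2']; abel)⟩
    have e2 := t3 g (v - Q Z2 v) ⟨mem_km.2 (by rw [map_sub, c12, hv', map_neg]; abel),
      mem_km.2 (by rw [map_sub, i2']; abel)⟩
    have e3 : (2 : k) • S g v = (2 : k) • v := by
      rw [two_smul, two_smul]
      calc S g v + S g v = S g (v + Q Z2 v) + S g (v - Q Z2 v) := by rw [map_add, map_sub]; abel
        _ = v + v := by rw [e1, e2]; abel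
    exact smul_right_injective V h2 e3
  obtain ⟨σ, hσ⟩ := exists_emb h (cc (f7 4) (f7 5) (f7 6) (f7.injective.ne (by decide)) (f7.injective.ne (by decide)))
    (by
      intro y hy
      have hr : ∀ i : Fin 7, (∀ x : Fin 4, i ≠ Fin.castLE (by norm_num) x) → ∃ x, h x = f7 i := fun i hi =>
        hcov _ fun x hx => hi x (f7.injective hx).symm
      obtain ⟨x4, h4⟩ := hr 4 (by decide)
      obtain ⟨x5, h5⟩ := hr 5 (by decide)
      obtain ⟨x6, h6⟩ := hr 6 (by decide)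
      exact c3_other (by rw [← h4]; exact (hy x4).symm) (by rw [← h5]; exact (hy x5).symm)
        (by rw [← h6]; exact (hy x6).symm))
  rw [← hσ]
  exact fixed σ

theorem nrel_of_pn (h2 : (2 : k) ≠ 0) (h : PN R) (f : Fin 8 ↪ α) (hf : Function.Injective R) :
    ∃ e, e ≠ 0 ∧ NRel R e (f 0) (f 1) (f 2) (f 3) (f 2) := by
  have ne : ∀ i j : Fin 8, i ≠ j → f i ≠ f j := fun i j h => f.injective.ne h
  set z1 : alternatingGroup (Fin 8) := dt 0 1 2 3 (by decide) (by decide) with hz1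
  set z2 : alternatingGroup (Fin 8) := dt 0 2 1 3 (by decide) (by decide) with hz2
  set z3 : alternatingGroup (Fin 8) := dt 0 3 1 2 (by decide) (by decide) with hz3
  set t : alternatingGroup (Fin 8) := cc 0 1 2 (by decide) (by decide) with ht
  set g : alternatingGroup (Fin 8) := dt 0 1 4 5 (by decide) (by decide) with hg
  set g' : alternatingGroup (Fin 8) := dt 2 3 4 5 (by decide) (by decide) with hg'
  have r3 : z1 * z2 = z3 := by decide
  have r4 : z3 * t = t * z1 := by decide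
  have r5 : z2 * t = t * z3 := by decide
  have r6 : z1 * t = t * z2 := by decide
  have r7 : t * t * t = 1 := by decide
  have r8 : g * g = 1 := by decide
  have r9 : g * z1 = z1 * g := by decide
  have r10 : z2 * g = g * z3 := by decide
  have r11 : g * t = t * t * g := by decide
  have r12 : g' = z1 * g := by decide
  let Q : Representation k (alternatingGroup (Fin 8)) V := R.comp (emb f)
  have hQ : ∀ x y v, Q (x * y) v = Q x (Q y v) := rho_mul Q
  have half : ∀ x : V, x = -x → x = 0 := fun x hx => by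
    have h3 : (2 : k) • x = 0 := by rw [two_smul]; nth_rewrite 2 [hx]; rw [add_neg_cancel]
    exact (smul_eq_zero.1 h3).resolve_left h2
  obtain ⟨w0, hw0, w01, w02⟩ : ∃ w0 : V, w0 ≠ 0 ∧ Q z1 w0 = w0 ∧ Q z2 w0 = -w0 := by
    let e : Fin 4 ↪ Fin 8 := Fin.castLEEmb (by omega)
    have e1 : emb e Z1 = z1 := emb_dt e _ _ _ _ _ _
    have e2 : emb e Z2 = z2 := emb_dt e _ _ _ _ _ _
    have hp := W1_pos h2 (Q.comp (emb e)) fun h => by
      have h3 : emb f (emb e Z1) = emb f 1 := hf (h.trans (by rw [map_one, map_one]))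
      rw [e1] at h3
      exact absurd (emb_injective f h3) (by decide)
    obtain ⟨v, hv, hv0⟩ := Submodule.exists_mem_ne_zero_of_ne_bot
      (p := LinearMap.ker ((Q.comp (emb e)) Z1 - 1) ⊓ LinearMap.ker ((Q.comp (emb e)) Z2 + 1)) fun h => by
        rw [h, finrank_bot] at hp
        omega
    exact ⟨v, hv0, e1 ▸ mem_kp.1 hv.1, e2 ▸ mem_km.1 hv.2⟩
  obtain ⟨w1, hw1, w11, w12, hgw⟩ : ∃ w1 : V, w1 ≠ 0 ∧ Q z1 w1 = w1 ∧ Q z2 w1 = -w1 ∧
      (Q g w1 = w1 ∨ Q g w1 = -w1) := by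
    by_cases hc : w0 + Q g w0 = 0
    · exact ⟨w0, hw0, w01, w02, Or.inr (neg_eq_of_add_eq_zero_right hc).symm⟩
    · refine ⟨w0 + Q g w0, hc, ?_, ?_, Or.inl ?_⟩
      · rw [map_add, ← hQ z1 g, ← r9, hQ, w01]
      · have e3 : Q z3 w0 = -w0 := by rw [← r3, hQ, w02, map_neg, w01]
        rw [map_add, ← hQ z2 g, r10, hQ, e3, w02, map_neg]; abel
      · rw [map_add, ← hQ, r8, rho_one, add_comm]
  have w13 : Q z3 w1 = -w1 := by rw [← r3, hQ, w12, map_neg, w11]
  have fz : ∀ (a b c d : Fin 8) (hab : a ≠ b) (hcd : c ≠ d), a ≠ c → a ≠ d → b ≠ c → b ≠ d → ∀ v,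
      Q (dt a b c d hab hcd) v = -v → Full (NatMod.stab R v) {x | x ≠ f a ∧ x ≠ f b ∧ x ≠ f c ∧ x ≠ f d} := by
    intro a b c d hab hcd hac had hbc hbd v hv
    refine full_of_PN h (ne _ _ hab) (ne _ _ hcd) (ne _ _ hac) (ne _ _ had) (ne _ _ hbc) (ne _ _ hbd) ?_
    rwa [← emb_dt]
  have un : ∀ {v : V} {S T : Set α}, Full (NatMod.stab R v) S → Full (NatMod.stab R v) T → f 6 ∈ S → f 7 ∈ S →
      f 6 ∈ T → f 7 ∈ T → Full (NatMod.stab R v) (S ∪ T) := fun h1 h2 => h1.union h2 (ne 6 7 (by decide))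
  have two : ∀ {v : V}, Full (NatMod.stab R v) {x | x ≠ f 0 ∧ x ≠ f 1 ∧ x ≠ f 2 ∧ x ≠ f 3} →
      Full (NatMod.stab R v) {x | x ≠ f 0 ∧ x ≠ f 1 ∧ x ≠ f 4 ∧ x ≠ f 5} →
      Full (NatMod.stab R v) {x | x ≠ f 0 ∧ x ≠ f 1} := fun F2 F1 => by
    refine (un F2 F1 ?_ ?_ ?_ ?_).mono ?_
    iterate 4 exact ⟨ne _ _ (by decide), ne _ _ (by decide), ne _ _ (by decide), ne _ _ (by decide)⟩
    rintro x ⟨h0, h1⟩
    by_cases h3 : x = f 2
    · exact Or.inr (h3 ▸ ⟨ne _ _ (by decide), ne _ _ (by decide), ne _ _ (by decide), ne _ _ (by decide)⟩)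
    by_cases h4 : x = f 3
    · exact Or.inr (h4 ▸ ⟨ne _ _ (by decide), ne _ _ (by decide), ne _ _ (by decide), ne _ _ (by decide)⟩)
    exact Or.inl ⟨h0, h1, h3, h4⟩
  rcases hgw with hgw | hgw
  · set w3 := Q t w1 with hw3
    set w2 := Q t w3 with hw2
    have tw2 : Q t w2 = w1 := by rw [hw2, hw3, ← hQ, ← hQ, r7, rho_one]
    have gw3 : Q g w3 = w2 := by rw [hw3, ← hQ, r11, hQ, hgw, hQ]
    have gw2 : Q g w2 = w3 := by rw [← gw3, ← hQ, r8, rho_one]
    have z1w3 : Q z1 w3 = -w3 := by rw [hw3, ← hQ, r6, hQ, w12, map_neg]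
    have z2w3 : Q z2 w3 = -w3 := by rw [hw3, ← hQ, r5, hQ, w13, map_neg]
    have z3w3 : Q z3 w3 = w3 := by rw [hw3, ← hQ, r4, hQ, w11]
    have z1w2 : Q z1 w2 = -w2 := by rw [hw2, ← hQ, r6, hQ, z2w3, map_neg]
    have z2w2 : Q z2 w2 = w2 := by rw [hw2, ← hQ, r5, hQ, z3w3]
    have ge : Q g (w2 - w3) = -(w2 - w3) := by rw [map_sub, gw2, gw3]; abel
    have z1e : Q z1 (w2 - w3) = -(w2 - w3) := by rw [map_sub, z1w2, z1w3]; abel
    refine ⟨w2 - w3, fun hcon => ?_, ne 0 1 (by decide), ne 2 3 (by decide), ne 0 2 (by decide), ne 0 3 (by decide),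
      ne 1 2 (by decide), ne 1 3 (by decide), ne 0 2 (by decide), ne 1 2 (by decide),
      two (fz 0 1 2 3 _ _ (by decide) (by decide) (by decide) (by decide) _ z1e)
        (fz 0 1 4 5 _ _ (by decide) (by decide) (by decide) (by decide) _ ge), ?_, ?_⟩
    · rw [sub_eq_zero.1 hcon, z2w3] at z2w2
      exact hw1 (rho_injective Q t ((half w3 z2w2.symm).trans (map_zero _).symm))
    · have : R (emb f z1) (w2 - w3) = -(w2 - w3) := z1e
      rwa [hz1, emb_dt] at this
    · have h3 : w2 - w3 + Q t (w2 - w3) + Q t (Q t (w2 - w3)) = 0 := by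
        rw [map_sub, tw2, ← hw2, map_sub, tw2, ← hw3]
        abel
      have h4 : Q t = R (cc (f 0) (f 1) (f 2) (ne 0 1 (by decide)) (ne 1 2 (by decide))) := by
        show R (emb f t) = _
        rw [ht, emb_cc]
      rwa [h4] at h3
  · exfalso
    have g'w : Q g' w1 = -w1 := by rw [r12, hQ, hgw, map_neg, w11]
    have F12 := two ((fz 0 2 1 3 _ _ (by decide) (by decide) (by decide) (by decide) _ w12).mono
      fun x hx => ⟨hx.1, hx.2.2.1, hx.2.1, hx.2.2.2⟩)
      (fz 0 1 4 5 _ _ (by decide) (by decide) (by decide) (by decide) _ hgw)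
    have F : Full (NatMod.stab R w1) Set.univ := by
      refine (un F12 (fz 2 3 4 5 _ _ (by decide) (by decide) (by decide) (by decide) _ g'w) ?_ ?_ ?_ ?_).mono ?_
      iterate 2 exact ⟨ne _ _ (by decide), ne _ _ (by decide)⟩
      iterate 2 exact ⟨ne _ _ (by decide), ne _ _ (by decide), ne _ _ (by decide), ne _ _ (by decide)⟩
      rintro x -
      by_cases h3 : x = f 0
      · exact Or.inr (h3 ▸ ⟨ne _ _ (by decide), ne _ _ (by decide), ne _ _ (by decide), ne _ _ (by decide)⟩)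
      by_cases h4 : x = f 1
      · exact Or.inr (h4 ▸ ⟨ne _ _ (by decide), ne _ _ (by decide), ne _ _ (by decide), ne _ _ (by decide)⟩)
      exact Or.inl ⟨h3, h4⟩
    have h5 : ((emb f z2 : alternatingGroup α) : Perm α) ∈ NatMod.stab R w1 :=
      mem_of_full F (mem_alternatingGroup.1 (emb f z2).2) fun _ _ => Set.mem_univ _
    rw [NatMod.mem_stab] at h5
    exact hw1 (half w1 (h5.symm.trans w12))

end Rel

variable {Y : Type} [Group Y] {n : ℕ} {ψ : Y →* Perm (Fin n)}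

/-- `b` has the orbit `f 0, f 1, f 2` and the fixed point `f 3` -/
def Tri (ψ : Y →* Perm (Fin n)) (b : Y) (f : Fin 4 ↪ Fin n) : Prop := ∀ i, ψ b (f i) = f (c3 0 1 2 i)

theorem Tri.conj {b : Y} {f : Fin 4 ↪ Fin n} (h : Tri ψ b f) (σ : Perm (Fin 4)) :
    ψ b * embP f σ * (ψ b)⁻¹ = embP f (c3 0 1 2 * σ * (c3 0 1 2)⁻¹) := by
  rw [mul_inv_eq_iff_eq_mul]
  ext1 x
  by_cases hx : ∃ i, f i = x
  · obtain ⟨i, rfl⟩ := hx
    simp only [Perm.mul_apply, embP_apply, h _, inv_apply_self]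
  · push Not at hx
    rw [Perm.mul_apply, Perm.mul_apply, embP_other f _ hx, embP_other f]
    intro i e
    exact hx ((c3 0 1 2)⁻¹ i) ((ψ b).injective (by rw [h, apply_inv_self, e]))

variable [Finite Y] {V : Type} [AddCommGroup V] [Module (ZMod 3) V] [Finite V] {K : Subgroup Y}
  {ρ : Representation (ZMod 3) Y V}

/-- **trivial centre**: a small commutator space of an element of order three forces the natural module -/
theorem Fr.deep_one (F : Fr 3 K ρ ψ) (hn : 9 ≤ n) (hi : Function.Injective ψ) {b : Y} {f : Fin 4 ↪ Fin n}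
    (h : Tri ψ b f) (hc : cod ρ (Subgroup.zpowers b) ≤ 5) : ∃ B, Off 3 ρ B ∧ Cub ρ B := by
  obtain ⟨ι, hι, -⟩ := F.iota hi
  have h2 : (2 : ZMod 3) ≠ 0 := by decide
  have key : ∀ (b : Y) (f : Fin 4 ↪ Fin n), Tri ψ b f →
      finrank (ZMod 3) (LinearMap.ker ((ρ.comp ι) (emb f Z1) + 1)) ≤ cod ρ (Subgroup.zpowers b) := by
    intro b f h
    refine finrank_le_cod (Submodule.eq_bot_iff _ |>.2 fun v hv => ?_)
    have h1 : ρ (ι (emb f Z1)) v = -v := mem_km.1 hv.1
    have h3 : ρ b v = v := mem_fx_zpowers.1 hv.2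
    have h4 : ∀ x y : alternatingGroup (Fin 4), c3 0 1 2 * (x : Perm (Fin 4)) * (c3 0 1 2 : Perm (Fin 4))⁻¹ = (y : Perm (Fin 4)) →
        ρ (ι (emb f x)) v = -v → ρ (ι (emb f y)) v = -v := fun x y e hx => by
      have e' : ι (emb f y) * b = b * ι (emb f x) := hi (by
        rw [map_mul, map_mul, hι, hι, coe_emb, coe_emb, ← e, ← h.conj, inv_mul_cancel_right])
      rw [← h3, ← rho_mul, e', rho_mul, hx, map_neg]
    have h5 := h4 Z1 Z3 (by decide) h1
    have h6 := h4 Z3 Z2 (by decide) h5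
    rw [show Z2 = Z1 * Z3 by decide, map_mul, map_mul, rho_mul, h5, map_neg, h1, neg_neg] at h6
    have h7 : (2 : ZMod 3) • v = 0 := by rw [two_smul]; nth_rewrite 2 [h6]; rw [add_neg_cancel]
    exact (smul_eq_zero.1 h7).resolve_left h2
  have hPN : PN (ρ.comp ι) := pn_of_small h2 (by simpa using hn) fun g => by
    obtain ⟨σ, hσ⟩ := exists_even f g f.injective g.injective (by simp; omega)
    refine (key (ι σ * b * (ι σ)⁻¹) g fun i => ?_).trans ((cod_zpowers_conj (ρ := ρ) (ι σ) b).le.trans hc)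
    rw [map_mul, map_mul, map_inv, hι, Perm.mul_apply, Perm.mul_apply, ← hσ, inv_apply_self, h, hσ]
  have hinj : Function.Injective (ρ.comp ι) := F.faithful.comp fun x y e => Subtype.ext (by rw [← hι, e, hι])
  obtain ⟨e, he, hR⟩ := nrel_of_pn h2 hPN (Fin.castLEEmb (by omega)) hinj
  have ne : ∀ i j : Fin 4, i ≠ j → f i ≠ f j := fun i j h => f.injective.ne h
  have h3 := (F.nat_cod hi hι he hR).1 (ne 0 1 (by decide)) (ne 0 2 (by decide)) (ne 1 2 (by decide))
  have h4 : orderOf (ι (cc (f 0) (f 1) (f 2) (ne 0 1 (by decide)) (ne 1 2 (by decide)))) = 3 :=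
    orderOf_eq_prime (hi (by
      rw [map_pow, hι, map_one ψ]
      exact c3_pow_three (ne _ _ (by decide)) (ne _ _ (by decide)) (ne _ _ (by decide))))
      fun e => c3_ne_one (ne 0 1 (by decide)) (ne 0 2 (by decide)) ((hι _).symm.trans (by rw [e, map_one]))
  have h5 := off_zpowers h4 h3
  exact ⟨_, h5, cub_of_cod_le_two (elemAb_isPGroup h5.1) h3⟩

end Cfsg.Agent.TwoF.Alt
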