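import Cfsg.Agent.TwoF.Alt.Odd2

/-!
# Alternating groups, characteristic three: the double cover (helper10)

`Fr.deep`: an element of order three with an orbit of length three and a fixed point has codimension at least five, unless
there is a cubic offender (natural module; the spin module of dimension eight).
-/

set_option autoImplicit false

namespace Cfsg.Agent.TwoF.Alt

open Module Equiv Equiv.Perm Gen H189 H189.Cyc H189.Emb

section Lin

theorem triple_zero {R : Type*} [Ring R] {a b c : R} (hab : b * a = a * b) (hac : c * a = a * c) (hbc : c * b = b * c)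
    (ha : a * a = 0) (hb : b * b = 0) (hc : c * c = 0) (h : a * (b * c) = 0) {x y z : R}
    (hx : x = a ∨ x = b ∨ x = c) (hy : y = a ∨ y = b ∨ y = c) (hz : z = a ∨ z = b ∨ z = c) : x * y * z = 0 := by
  have h1 : ∀ w, b * (a * w) = a * (b * w) := fun w => by rw [← mul_assoc, hab, mul_assoc]
  have h2 : ∀ w, c * (a * w) = a * (c * w) := fun w => by rw [← mul_assoc, hac, mul_assoc]
  have h3 : ∀ w, c * (b * w) = b * (c * w) := fun w => by rw [← mul_assoc, hbc, mul_assoc]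
  have h4 : ∀ w, a * (a * w) = 0 := fun w => by rw [← mul_assoc, ha, zero_mul]
  have h5 : ∀ w, b * (b * w) = 0 := fun w => by rw [← mul_assoc, hb, zero_mul]
  have h6 : ∀ w, c * (c * w) = 0 := fun w => by rw [← mul_assoc, hc, zero_mul]
  rcases hx with hx | hx | hx <;> rcases hy with hy | hy | hy <;> rcases hz with hz | hz | hz <;>
    rw [hx, hy, hz] <;>
    simp only [mul_assoc, hab, hac, hbc, ha, hb, hc, h, h1, h2, h3, h4, h5, h6, mul_zero, zero_mul]

variable {k : Type} [Field k] {Y : Type} [Group Y] {V : Type} [AddCommGroup V] [Module k V]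
  {ρ : Representation k Y V}

theorem elemAb_gen {p : ℕ} {s : Set Y} (hc : ∀ a ∈ s, ∀ b ∈ s, a * b = b * a) (hp : ∀ a ∈ s, a ^ p = 1) :
    IsElementaryAbelian p (Subgroup.closure s) := by
  have h := Subgroup.isMulCommutative_closure hc
  refine ⟨h, fun a ha => ?_⟩
  induction ha using Subgroup.closure_induction with
  | mem x hx => exact hp x hx
  | one => exact one_pow p
  | mul x y hx hy h1 h2 =>
    have : Commute x y := congrArg Subtype.val (h.is_comm.comm ⟨x, hx⟩ ⟨y, hy⟩)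
    rw [this.mul_pow, h1, h2, one_mul]
  | inv x _ h1 => rw [inv_pow, h1, inv_one]

/-- cubic action of a commutative group is checked on generators -/
theorem cub_gen {s : Set Y} (hc : ∀ a ∈ Subgroup.closure s, ∀ b ∈ Subgroup.closure s, a * b = b * a)
    (h : ∀ a ∈ s, ∀ b ∈ s, ∀ c ∈ s, (ρ a - 1) * (ρ b - 1) * (ρ c - 1) = 0) : Cub ρ (Subgroup.closure s) := by
  have L : ∀ T : End k V, (∀ a ∈ s, (ρ a - 1) * T = 0) → ∀ a ∈ Subgroup.closure s, (ρ a - 1) * T = 0 :=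
    fun T hT a ha => LinearMap.ext fun v => sub_eq_zero.2
      (mem_fx_closure.2 (fun b hb => sub_eq_zero.1 (LinearMap.congr_fun (hT b hb) v)) a ha)
  have C : ∀ a ∈ Subgroup.closure s, ∀ b ∈ Subgroup.closure s, (ρ a - 1) * (ρ b - 1) = (ρ b - 1) * (ρ a - 1) :=
    fun a ha b hb => LinearMap.ext (sub_one_comm (hc a ha b hb))
  have m := @Subgroup.subset_closure Y _ s
  have h1 : ∀ b ∈ s, ∀ c ∈ s, ∀ a ∈ Subgroup.closure s, (ρ a - 1) * ((ρ b - 1) * (ρ c - 1)) = 0 :=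
    fun b hb c hc => L _ fun a ha => by rw [← mul_assoc, h a ha b hb c hc]
  have h2 : ∀ c ∈ s, ∀ a ∈ Subgroup.closure s, ∀ b ∈ Subgroup.closure s,
      (ρ b - 1) * ((ρ a - 1) * (ρ c - 1)) = 0 := fun c hc a ha => L _ fun b hb => by
    rw [← mul_assoc, C b (m hb) a ha, mul_assoc, h1 b hb c hc a ha]
  intro a ha b hb c hc
  rw [mul_assoc, C b hb c hc, ← mul_assoc, C a ha c hc, mul_assoc]
  refine L _ (fun c hc => ?_) c hc
  rw [← mul_assoc, C c (m hc) a ha, mul_assoc, C c (m hc) b hb, h2 c hc b hb a ha]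

end Lin

variable {Y : Type} [Group Y] {n : ℕ} {ψ : Y →* Perm (Fin n)} {V : Type} [AddCommGroup V] [Module (ZMod 3) V]
  [Finite V] {K : Subgroup Y} {ρ : Representation (ZMod 3) Y V}

omit [Finite V] in
theorem eq_zero_of_neg {v : V} (h : v = -v) : v = 0 := by
  have h7 : (2 : ZMod 3) • v = 0 := by rw [two_smul]; nth_rewrite 2 [h]; rw [add_neg_cancel]
  exact (smul_eq_zero.1 h7).resolve_left (by decide)

/-- a square root of `-1` -/
theorem two_le_of_sq {T : End (ZMod 3) V} (hT : ∀ v, T (T v) = -v) {W : Submodule (ZMod 3) V} (hW : ∀ v ∈ W, T v ∈ W)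
    (h0 : W ≠ ⊥) : 2 ≤ finrank (ZMod 3) W := by
  by_contra h
  obtain ⟨v, hv, hne⟩ := Submodule.exists_mem_ne_zero_of_ne_bot h0
  have h1 : finrank (ZMod 3) W = 1 := by
    have : finrank (ZMod 3) W ≠ 0 := fun e => h0 (Submodule.finrank_eq_zero.1 e)
    omega
  obtain ⟨t, ht⟩ := (finrank_eq_one_iff_of_nonzero' (⟨v, hv⟩ : W) fun e => hne (congrArg Subtype.val e)).1 h1
    ⟨T v, hW v hv⟩
  have h2 : t • v = T v := congrArg Subtype.val ht
  have h3 : (t * t + 1) • v = 0 := by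
    rw [add_smul, mul_smul, h2, ← map_smul, h2, hT, one_smul, neg_add_cancel]
  exact hne ((smul_eq_zero.1 h3).resolve_left ((by decide : ∀ t : ZMod 3, ¬ t * t + 1 = 0) t))

/-- lifts of double transpositions have square `-1` -/
def Spin (ρ : Representation (ZMod 3) Y V) (ψ : Y →* Perm (Fin n)) : Prop :=
  ∀ {m : ℕ} (f : Fin m ↪ Fin n) (a b c d : Fin m), a ≠ b ∧ a ≠ c ∧ a ≠ d ∧ b ≠ c ∧ b ≠ d ∧ c ≠ d →
    ∀ y, ψ y = embP f (swap a b * swap c d) → ∀ v, ρ y (ρ y v) = -v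

omit [Finite V] in
theorem Fr.spin (F : Fr 3 K ρ ψ) (h : Nat.card ψ.ker = 2) : Spin ρ ψ := by
  obtain ⟨C, h1, h2⟩ := F.cover h
  rintro m f a b c d ⟨hab, hac, had, hbc, hbd, hcd⟩ y hy v
  rw [map_mul, embP_swap, embP_swap] at hy
  have hK : y ∈ K := F.mem_of_eq hy (mem_alternatingGroup.1 (dt_mem (f.injective.ne hab) (f.injective.ne hcd)))
  have h3 := C.dbl _ _ _ _ (f.injective.ne hab) (f.injective.ne hac) (f.injective.ne had) (f.injective.ne hbc)
    (f.injective.ne hbd) (f.injective.ne hcd) ⟨y, hK⟩ ((h1 _).trans hy)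
  rw [← rho_mul, show y * y = C.z from congrArg Subtype.val h3, h2]

/-- the step for an orbit of length three -/
theorem Spin.step (S : Spin ρ ψ) {b y : Y} {f : Fin 4 ↪ Fin n} (h : Tri ψ b f)
    (hy : ψ y = embP f (swap 0 1 * swap 2 3)) {W : Submodule (ZMod 3) V} (hW : W.map (ρ y) = W) :
    finrank (ZMod 3) W ≤ 2 * codOn ρ W (Subgroup.zpowers b) := by
  have h1 : ψ (b * (y * b * y⁻¹)⁻¹) = embP f (swap 0 2 * swap 1 3) := by
    rw [show b * (y * b * y⁻¹)⁻¹ = b * y * b⁻¹ * y⁻¹ by group, map_mul, map_mul, map_mul, map_inv, map_inv, hy,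
      h.conj, ← map_inv, ← map_mul]
    exact congrArg _ (by decide)
  have h2 := S f 0 2 1 3 (by decide) _ h1
  have h3 := codOn_sup_le (ρ := ρ) W (Subgroup.zpowers b) (Subgroup.zpowers (y * b * y⁻¹))
  have h4 := codOn_conj (ρ := ρ) y W (Subgroup.zpowers b)
  rw [hW, ← zpowers_conj] at h4
  rw [codOn_of_inf_eq_bot, h4] at h3
  · omega
  · refine (Submodule.eq_bot_iff _).2 fun v hv => eq_zero_of_neg ?_
    have h5 := hv.2 _ (mul_mem (Subgroup.mem_sup_left (Subgroup.mem_zpowers b))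
      (inv_mem (Subgroup.mem_sup_right (Subgroup.mem_zpowers (y * b * y⁻¹)))))
    rw [← h2, h5, h5]

variable [Finite Y]

/-- a subspace invariant under the lifts of the alternating group of five points -/
theorem Fr.four_le_finrank (F : Fr 3 K ρ ψ) (S : Spin ρ ψ) (f : Fin 5 ↪ Fin n) {W : Submodule (ZMod 3) V}
    (hW : ∀ y σ, ψ y = embP f σ → ∀ v ∈ W, ρ y v ∈ W) (h0 : W ≠ ⊥) : 4 ≤ finrank (ZMod 3) W := by
  by_contra h
  have key : ∀ σ : Perm (Fin 5), sign σ = 1 → σ ^ 5 = 1 → ∃ w, ψ w = embP f σ ∧ ∀ v ∈ W, ρ w v = v := by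
    intro σ h1 h2
    obtain ⟨x, -, hx⟩ := F.lift (embP f σ) (by rw [sign_embP, h1])
    obtain ⟨h3, h4⟩ := F.exists_five (x := x) (by rw [hx, ← map_pow, h2, map_one])
    refine ⟨x ^ 6, h4.trans hx, ?_⟩
    by_contra hc
    push Not at hc
    refine h ((four_le h3 ?_ hc).trans (codOn_le_finrank _ _))
    rintro _ ⟨i, rfl⟩
    exact hW _ (σ ^ i) (by rw [map_zpow, map_zpow, h4, hx])
  obtain ⟨w1, a1, a2⟩ := key (finRotate 5) (by decide) (by decide)
  obtain ⟨w2, b1, b2⟩ := key ((finRotate 5)⁻¹ * (swap 0 2 * swap 1 3)) (by decide) (by decide +kernel)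
  have h1 := S f 0 2 1 3 (by decide) (w1 * w2) (by rw [map_mul, a1, b1, ← map_mul, mul_inv_cancel_left])
  refine h0 ((Submodule.eq_bot_iff _).2 fun v hv => eq_zero_of_neg ?_)
  rw [← h1, rho_mul, rho_mul, b2 v hv, a2 v hv, b2 v hv, a2 v hv]

/-- small dimension: elements of order three with five fixed points are quadratic -/
theorem Fr.quad (F : Fr 3 K ρ ψ) (S : Spin ρ ψ) (hD : finrank (ZMod 3) V ≤ 8) {c : Y} (hc : c ∈ K) (h3 : c ^ 3 = 1)
    (h1 : c ≠ 1) (f : Fin 5 ↪ Fin n) (hf : ∀ i, ψ c (f i) = f i) :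
    finrank (ZMod 3) V = 8 ∧ finrank (ZMod 3) (fx ρ (Subgroup.zpowers c)) = 4 ∧
      ∀ v, (ρ c - 1) v ∈ fx ρ (Subgroup.zpowers c) := by
  have hP : IsPGroup 3 (Subgroup.zpowers c) := elemAb_isPGroup (elemAb_zpowers h3)
  have hcm : ∀ y σ, ψ y = embP f σ → y * c = c * y := fun y σ hy => F.comm hc (by
    rw [hy]
    exact (sup_embP f σ (S := Set.range f) fun i => ⟨i, rfl⟩).comm (by rintro _ ⟨i, rfl⟩; exact hf i)) h3
  have hR : ∀ y, y * c = c * y → ∀ v ∈ LinearMap.range (ρ c - 1), ρ y v ∈ LinearMap.range (ρ c - 1) := by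
    rintro y hy _ ⟨v, rfl⟩
    refine ⟨ρ y v, ?_⟩
    show ρ c (ρ y v) - ρ y v = ρ y (ρ c v - v)
    rw [map_sub, ← rho_mul, ← rho_mul, hy]
  have hne : LinearMap.range (ρ c - 1) ⊓ fx ρ (Subgroup.zpowers c) ≠ ⊥ := by
    refine inf_fx_ne_bot hP ?_ fun e => h1 (F.faithful ?_)
    · rintro _ ⟨i, rfl⟩
      exact hR _ ((Commute.refl c).zpow_left i).eq
    · rw [map_one]
      exact sub_eq_zero.1 (LinearMap.range_eq_bot.1 e)
  have h4 := F.four_le_finrank S f (W := LinearMap.range (ρ c - 1) ⊓ fx ρ (Subgroup.zpowers c))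
    (fun y σ hy v hv => ⟨hR y (hcm y σ hy) v hv.1,
    mem_fx_zpowers.2 (by rw [← rho_mul, ← hcm y σ hy, rho_mul, mem_fx_zpowers.1 hv.2])⟩) hne
  have h5 := Submodule.finrank_mono (inf_le_left : LinearMap.range (ρ c - 1) ⊓ fx ρ (Subgroup.zpowers c) ≤ _)
  have h6 := Submodule.finrank_mono (inf_le_right : LinearMap.range (ρ c - 1) ⊓ fx ρ (Subgroup.zpowers c) ≤ _)
  have h7 := cod_add (ρ := ρ) (Subgroup.zpowers c)
  rw [cod_zpowers] at h7
  refine ⟨by omega, by omega, fun v => ?_⟩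
  have h8 := Submodule.eq_of_le_of_finrank_le
    (inf_le_left : LinearMap.range (ρ c - 1) ⊓ fx ρ (Subgroup.zpowers c) ≤ _) (by omega)
  exact (h8.ge ⟨v, rfl⟩).2

omit [Finite V] in
/-- lifts of order three are unique -/
theorem Fr.eq_of_three (F : Fr 3 K ρ ψ) {a b : Y} (hb : b ∈ K) (h : ψ a = ψ b) (h1 : a ^ 3 = 1) (h2 : b ^ 3 = 1) :
    a = b := by
  have h3 : Commute a b := F.comm hb (by rw [h]) h2
  exact mul_inv_eq_one.1 (F.eq_one' (by rw [h3.inv_right.mul_pow, h1, inv_pow, h2, inv_one, mul_one])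
    (by rw [map_mul, map_inv, h, mul_inv_cancel]))

/-- the three 3-cycles -/
def t9 (i : Fin 3) : Perm (Fin 9) := ![c3 0 1 2, c3 3 4 5, c3 6 7 8] i

theorem t9_inj : Function.Injective fun x : Fin 3 × Fin 3 × Fin 3 => t9 0 ^ x.1.1 * t9 1 ^ x.2.1.1 * t9 2 ^ x.2.2.1 := by
  intro x y h
  have h0 := congrArg (fun σ : Perm (Fin 9) => (σ 0, σ 3, σ 6)) h
  revert x y
  decide +kernel

/-- **the spin module of dimension eight** -/
theorem Fr.spin_eight (F : Fr 3 K ρ ψ) (hn : 9 ≤ n) (hk : Nat.card ψ.ker = 2) (hD : finrank (ZMod 3) V ≤ 8) :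
    ∃ B, Off 3 ρ B ∧ Cub ρ B := by
  have S : Spin ρ ψ := F.spin hk
  let f : Fin 9 ↪ Fin n := Fin.castLEEmb hn
  have hc : ∀ i, ∃ c ∈ K, c ^ 3 = 1 ∧ ψ c = embP f (t9 i) := fun i => by
    obtain ⟨x, hx, e⟩ := F.lift (embP f (t9 i)) (by rw [sign_embP]; revert i; decide)
    have h1 : ψ x ^ 3 = 1 := by rw [e, ← map_pow, (by decide : ∀ i, t9 i ^ 3 = 1) i, map_one]
    have h2 := Fr.pow_card h1
    rw [hk] at h2
    exact ⟨x ^ 4, pow_mem hx 4, by rw [← pow_mul, show 4 * 3 = 3 * 2 * 2 from rfl, pow_mul, h2, one_pow],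
      by rw [map_pow, pow_succ, h1, one_mul, e]⟩
  choose c cK c3' cψ using hc
  have hcm : ∀ i j, c i * c j = c j * c i := fun i j => F.comm (cK j)
    (by rw [cψ, cψ, ← map_mul, ← map_mul]; exact congrArg _ (by revert i j; decide)) (c3' j)
  have hq : ∀ i, finrank (ZMod 3) V = 8 ∧ finrank (ZMod 3) (fx ρ (Subgroup.zpowers (c i))) = 4 ∧
      ∀ v, (ρ (c i) - 1) v ∈ fx ρ (Subgroup.zpowers (c i)) := fun i => by
    obtain ⟨g, hg⟩ : ∃ g : Fin 5 ↪ Fin 9, ∀ j, t9 i (g j) = g j := by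
      fin_cases i
      · exact ⟨⟨![3, 4, 5, 6, 7], by decide⟩, by decide⟩
      · exact ⟨⟨![0, 1, 2, 6, 7], by decide⟩, by decide⟩
      · exact ⟨⟨![0, 1, 2, 3, 4], by decide⟩, by decide⟩
    refine F.quad S hD (cK i) (c3' i) (fun e => ?_) (g.trans f) fun j => ?_
    · exact embP_ne_one f ((by decide : ∀ i, t9 i ≠ 1) i) ((cψ i).symm.trans (by rw [e, map_one]))
    · rw [cψ, Function.Embedding.trans_apply, embP_apply, hg]
  set E := Subgroup.closure (Set.range c) with hE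
  have hEa : IsElementaryAbelian 3 E := elemAb_gen (by rintro _ ⟨i, rfl⟩ _ ⟨j, rfl⟩; exact hcm i j)
    (by rintro _ ⟨i, rfl⟩; exact c3' i)
  have mE : ∀ i, c i ∈ E := fun i => Subgroup.subset_closure ⟨i, rfl⟩
  have hfx : ∀ v, v ∈ fx ρ E ↔ ∀ i, ρ (c i) v = v := fun v => by rw [hE, mem_fx_closure, Set.forall_mem_range]
  -- the fixed space has dimension at least two
  have h2 : 2 ≤ finrank (ZMod 3) (fx ρ E) := by
    obtain ⟨y, hy, e⟩ := F.lift (embP f (swap 4 5 * swap 7 8)) (by rw [sign_embP]; decide)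
    refine two_le_of_sq (S f 4 5 7 8 (by decide) y e) (fun v hv => (hfx _).2 fun i => ?_) fun h0 =>
      inf_fx_ne_bot (elemAb_isPGroup hEa) (inv_top E) (haveI := F.nontrivial; top_ne_bot)
        (by rw [h0, inf_bot_eq])
    have h1 : y⁻¹ * c i * y = c i ^ (if i = 0 then 1 else 2) := F.eq_of_three (pow_mem (cK i) _)
      (by rw [map_mul, map_mul, map_inv, map_pow, e, cψ, ← map_inv, ← map_mul, ← map_mul, ← map_pow]
          exact congrArg _ (by revert i; decide))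
      (by rw [show y⁻¹ * c i * y = y⁻¹ * c i * y⁻¹⁻¹ by rw [inv_inv], conj_pow, c3', mul_one, mul_inv_cancel])
      (by rw [← pow_mul, mul_comm, pow_mul, c3', one_pow])
    rw [← rho_mul, show c i * y = y * (y⁻¹ * c i * y) by group, rho_mul, h1, hv _ (pow_mem (mE i) _)]
  -- two fixed spaces meet in dimension at most two
  have h3 : finrank (ZMod 3) ↥(fx ρ (Subgroup.zpowers (c 0)) ⊓ fx ρ (Subgroup.zpowers (c 1))) ≤ 2 := by
    let g : Fin 4 ↪ Fin 9 := ⟨![3, 4, 5, 6], by decide⟩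
    obtain ⟨y, hy, e⟩ := F.lift (embP (g.trans f) (swap 0 1 * swap 2 3)) (by rw [sign_embP]; decide)
    have h4 : y * c 0 = c 0 * y := F.comm (cK 0) (by
      rw [e]
      refine (sup_embP _ _ (S := Set.range (g.trans f)) fun i => ⟨i, rfl⟩).comm ?_
      rintro _ ⟨i, rfl⟩
      rw [cψ, Function.Embedding.trans_apply, embP_apply]
      exact congrArg _ (by revert i; decide)) (c3' 0)
    have h5 := S.step (b := c 1) (f := g.trans f) (fun i => by
      rw [cψ, Function.Embedding.trans_apply, Function.Embedding.trans_apply, embP_apply]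
      exact congrArg _ (by revert i; decide)) e (W := fx ρ (Subgroup.zpowers (c 0))) (map_fx_of_comm (by
        rintro _ ⟨i, rfl⟩
        exact (Commute.zpow_left h4.symm i).eq))
    have h6 := codOn_add (ρ := ρ) (fx ρ (Subgroup.zpowers (c 0))) (Subgroup.zpowers (c 1))
    have h7 := (hq 0).2.1
    omega
  have h4 : fx ρ E = fx ρ (Subgroup.zpowers (c 0)) ⊓ fx ρ (Subgroup.zpowers (c 1)) :=
    Submodule.eq_of_le_of_finrank_le (le_inf (fx_anti (Subgroup.zpowers_le.2 (mE 0)))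
      (fx_anti (Subgroup.zpowers_le.2 (mE 1)))) (by omega)
  have hsq : ∀ i, (ρ (c i) - 1) * (ρ (c i) - 1) = 0 := fun i => LinearMap.ext fun v =>
    sub_eq_zero.2 (mem_fx_zpowers.1 ((hq i).2.2 v))
  have hu : ∀ i j, (ρ (c i) - 1) * (ρ (c j) - 1) = (ρ (c j) - 1) * (ρ (c i) - 1) := fun i j =>
    LinearMap.ext (sub_one_comm (hcm i j))
  have htr : (ρ (c 2) - 1) * ((ρ (c 1) - 1) * (ρ (c 0) - 1)) = 0 := LinearMap.ext fun v => by
    have h5 : (ρ (c 1) - 1) ((ρ (c 0) - 1) v) ∈ fx ρ E := by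
      rw [h4]
      exact ⟨sub_one_comm (ρ := ρ) (hcm 0 1) v ▸ (hq 0).2.2 _, (hq 1).2.2 _⟩
    exact sub_eq_zero.2 (h5 _ (mE 2))
  have hcard : 27 ≤ Nat.card E := by
    have := Nat.card_le_card_of_injective (fun x : Fin 3 × Fin 3 × Fin 3 =>
      (⟨c 0 ^ x.1.1 * c 1 ^ x.2.1.1 * c 2 ^ x.2.2.1,
        mul_mem (mul_mem (pow_mem (mE 0) _) (pow_mem (mE 1) _)) (pow_mem (mE 2) _)⟩ : E)) fun x y h => by
      apply t9_inj
      have h5 := congrArg (fun a : E => ψ a) h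
      simp only [map_mul, map_pow, cψ] at h5
      simp only [← map_pow, ← map_mul] at h5
      by_contra h6
      exact embP_ne_one f (fun e => h6 (mul_inv_eq_one.1 e)) (by rw [map_mul, map_inv, h5, mul_inv_cancel])
    simpa using this
  refine ⟨E, ⟨hEa, fun e => ?_, ?_⟩, cub_gen (fun a ha b hb => elemAb_comm hEa ha hb) ?_⟩
  · rw [e, Subgroup.card_bot] at hcard
    omega
  · have h5 := cod_add (ρ := ρ) E
    have h6 := (hq 0).1
    calc 3 ^ cod ρ E ≤ 3 ^ 6 := Nat.pow_le_pow_right (by norm_num) (by omega)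
      _ = 27 ^ 2 := by norm_num
      _ ≤ _ := Nat.pow_le_pow_left hcard 2
  · have h5 : ∀ i, ρ (c i) - 1 = ρ (c 2) - 1 ∨ ρ (c i) - 1 = ρ (c 1) - 1 ∨ ρ (c i) - 1 = ρ (c 0) - 1 := fun i => by
      fin_cases i
      · exact Or.inr (Or.inr rfl)
      · exact Or.inr (Or.inl rfl)
      · exact Or.inl rfl
    rintro _ ⟨i, rfl⟩ _ ⟨j, rfl⟩ _ ⟨l, rfl⟩
    exact triple_zero (hu 1 2) (hu 0 2) (hu 0 1) (hsq 2) (hsq 1) (hsq 0) htr (h5 i) (h5 j) (h5 l)

/-- **the deepest step** -/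
theorem Fr.deep (F : Fr 3 K ρ ψ) (hn : 9 ≤ n) (hno : ¬ ∃ B, Off 3 ρ B ∧ Cub ρ B) {b : Y} {f : Fin 4 ↪ Fin n}
    (h : Tri ψ b f) : 5 ≤ cod ρ (Subgroup.zpowers b) := by
  by_contra hc
  have h1 := F.two (by omega)
  have h2 : 0 < Nat.card ψ.ker := Nat.card_pos
  by_cases h3 : Nat.card ψ.ker = 1
  · exact hno (F.deep_one hn (Fr.inj_of_card h3) h (by omega))
  have h4 : Nat.card ψ.ker = 2 := by omega
  obtain ⟨y, -, e⟩ := F.lift (embP f (swap 0 1 * swap 2 3)) (by rw [sign_embP]; decide)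
  have h5 := Spin.step (F.spin h4) h e (W := ⊤) ((inv_top ⊤).map_eq (Subgroup.mem_top y))
  rw [codOn_top, finrank_top] at h5
  exact hno (F.spin_eight hn h4 (by omega))

end Cfsg.Agent.TwoF.Alt
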